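import Cfsg.Agent.H5.OmegaForms
import Cfsg.Agent.H67.OrthTypes
import Cfsg.Agent.H4.DiscClass

/-!
`Ω` as the kernel of determinant and spinor norm; orthogonal sums and transport.
-/

set_option autoImplicit false
set_option linter.unusedSectionVars false

namespace Cfsg.Agent.H18.SpecNine

open QuadraticMap Module Cfsg.Agent

variable {F : Type*} [Field F] [Fintype F]
variable {V V' : Type*} [AddCommGroup V] [Module F V] [AddCommGroup V'] [Module F V']
  [Finite V] [Finite V']

/-- The endomorphism of an isometry. -/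
def lin (Q : QuadraticForm F V) : H5.orth Q →* Module.End F V where
  toFun g := ((g : V ≃ₗ[F] V) : V →ₗ[F] V)
  map_one' := rfl
  map_mul' _ _ := rfl

theorem lin_apply (Q : QuadraticForm F V) (g : H5.orth Q) (x : V) :
    lin Q g x = (g : V ≃ₗ[F] V) x := rfl

theorem lin_injective (Q : QuadraticForm F V) : Function.Injective (lin Q) := fun _ _ h =>
  H5.orth_ext fun x => LinearMap.congr_fun h x

/-- Determinant `1` and trivial spinor norm. -/
noncomputable def InOmega (Q : QuadraticForm F V) (g : H5.orth Q) : Prop :=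
  LinearMap.det (lin Q g) = 1 ∧ H5.spin Q g = 1


theorem det_lin_sq {Q : QuadraticForm F V} (hQ : (polarBilin Q).Nondegenerate) (hg : H5.reflGroup Q = ⊤)
    (g : H5.orth Q) : LinearMap.det (lin Q g) = 1 ∨ LinearMap.det (lin Q g) = -1 := by
  have h := H5.det_eq_dick hQ (g := g) (by rw [hg]; trivial)
  change LinearMap.det (lin Q g) = _ at h
  rcases Int.units_eq_one_or (H5.dick g) with h' | h' <;> rw [h, h'] <;> simp

theorem card_ne_two (h2 : (2 : F) ≠ 0) : Nat.card F ≠ 2 := fun hc => h2 (by
  have := Nat.cast_card_eq_zero F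
  rw [← Nat.card_eq_fintype_card, hc] at this
  exact_mod_cast this)

theorem reflGroup_top {Q : QuadraticForm F V} (h2 : (2 : F) ≠ 0)
    (hQ : (polarBilin Q).Nondegenerate) : H5.reflGroup Q = ⊤ :=
  H5.reflGroup_eq_top hQ (Or.inl (card_ne_two h2))

/-- `Ω` is cut out by determinant and spinor norm. -/
theorem mem_commutator_iff {Q : QuadraticForm F V} (h2 : (2 : F) ≠ 0)
    (hQ : (polarBilin Q).Nondegenerate) (g : H5.orth Q) :
    g ∈ commutator (H5.orth Q) ↔ InOmega Q g := by
  rw [H5.commutator_eq_ker hQ (Or.inl (card_ne_two h2)), MonoidHom.mem_ker, H5.signPair_apply,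
    Prod.mk_eq_one, InOmega]
  refine and_congr_left' ?_
  have h := H5.det_eq_dick hQ (g := g) (by rw [reflGroup_top h2 hQ]; trivial)
  change LinearMap.det (lin Q g) = _ at h
  rw [h]
  rcases Int.units_eq_one_or (H5.dick g) with h' | h' <;> rw [h']
  · simp
  · refine iff_of_false (by decide) fun h1 => h2 ?_
    simp at h1
    linear_combination -h1

theorem spin_of_odd_pow {Q : QuadraticForm F V} {g : H5.orth Q} {k : ℕ} (hk : Odd k)
    (hg : g ^ k = 1) : H5.spin Q g = 1 := by
  have h := congrArg (H5.spin Q) hg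
  rw [map_pow, map_one] at h
  rcases Int.units_eq_one_or (H5.spin Q g) with h' | h'
  · exact h'
  · rw [h', hk.neg_one_pow] at h
    exact absurd h (by decide)

theorem inOmega_of_odd_pow {Q : QuadraticForm F V} (h2 : (2 : F) ≠ 0)
    (hQ : (polarBilin Q).Nondegenerate) {g : H5.orth Q} {k : ℕ} (hk : Odd k) (hg : g ^ k = 1) :
    InOmega Q g := by
  refine ⟨?_, spin_of_odd_pow hk hg⟩
  have h := congrArg (fun y => LinearMap.det (lin Q y)) hg
  simp only [map_pow, map_one] at h
  rcases det_lin_sq hQ (reflGroup_top h2 hQ) g with h' | h'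
  · exact h'
  · rw [h', hk.neg_one_pow] at h
    exact absurd h (fun h1 => h2 (by linear_combination -h1))

section Prod

variable (Q : QuadraticForm F V) (Q' : QuadraticForm F V')

/-- Side by side isometries. -/
def prodHom : H5.orth Q × H5.orth Q' →* H5.orth (Q.prod Q') where
  toFun p := ⟨(p.1 : V ≃ₗ[F] V).prodCongr (p.2 : V' ≃ₗ[F] V'), fun x => by
    simp [QuadraticMap.prod_apply, H5.orth_map]⟩
  map_one' := H5.orth_ext fun _ => rfl
  map_mul' _ _ := H5.orth_ext fun _ => rfl

theorem prodHom_apply (g : H5.orth Q) (g' : H5.orth Q') (x : V × V') :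
    (prodHom Q Q' (g, g') : (V × V') ≃ₗ[F] (V × V')) x =
      ((g : V ≃ₗ[F] V) x.1, (g' : V' ≃ₗ[F] V') x.2) := rfl

theorem prodHom_injective : Function.Injective (prodHom Q Q') := by
  rintro ⟨g, g'⟩ ⟨k, k'⟩ h
  refine Prod.ext (H5.orth_ext fun v => ?_) (H5.orth_ext fun v => ?_)
  · exact congrArg Prod.fst (LinearEquiv.congr_fun (congrArg Subtype.val h) (v, 0))
  · exact congrArg Prod.snd (LinearEquiv.congr_fun (congrArg Subtype.val h) (0, v))

theorem lin_prodHom (g : H5.orth Q) (g' : H5.orth Q') :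
    lin _ (prodHom Q Q' (g, g')) = (lin Q g).prodMap (lin Q' g') := rfl

variable {Q Q'}

theorem det_prodHom (g : H5.orth Q) (g' : H5.orth Q') :
    LinearMap.det (lin _ (prodHom Q Q' (g, g'))) = LinearMap.det (lin Q g) * LinearMap.det (lin Q' g') := by
  rw [lin_prodHom, LinearMap.det_prodMap]

theorem prodHom_refl_left (v : V) :
    prodHom Q Q' (H5.refl Q v, 1) = H5.refl (Q.prod Q') (v, 0) := by
  refine H5.orth_ext fun x => ?_
  rw [prodHom_apply, H5.refl_apply, H5.refl_apply, H67.polar_prod, QuadraticMap.prod_apply,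
    polar_zero_left, add_zero, QuadraticMap.map_zero, add_zero]
  refine Prod.ext rfl ?_
  simp

theorem prodHom_refl_right (v : V') :
    prodHom Q Q' (1, H5.refl Q' v) = H5.refl (Q.prod Q') (0, v) := by
  refine H5.orth_ext fun x => ?_
  rw [prodHom_apply, H5.refl_apply, H5.refl_apply, H67.polar_prod, QuadraticMap.prod_apply,
    polar_zero_left, zero_add, QuadraticMap.map_zero, zero_add]
  refine Prod.ext ?_ rfl
  simp

theorem spin_prodHom (h2 : (2 : F) ≠ 0) (hQ : (polarBilin Q).Nondegenerate)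
    (hQ' : (polarBilin Q').Nondegenerate) (g : H5.orth Q) (g' : H5.orth Q') :
    H5.spin _ (prodHom Q Q' (g, g')) = H5.spin Q g * H5.spin Q' g' := by
  have h1 : ∀ k ∈ H5.reflGroup Q, H5.spin _ (prodHom Q Q' (k, 1)) = H5.spin Q k := by
    intro k hk
    refine H5.reflGroup_induction
      (p := fun k => H5.spin _ (prodHom Q Q' (k, 1)) = H5.spin Q k) ?_ ?_ hk
    · rw [Prod.mk_one_one, map_one, map_one, map_one]
    · intro v k hv _ ih
      rw [show ((H5.refl Q v * k, (1 : H5.orth Q')) : H5.orth Q × H5.orth Q') =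
        (H5.refl Q v, 1) * (k, 1) by simp, map_mul, map_mul, ih, map_mul, prodHom_refl_left,
        H5.spin_refl (by simpa [QuadraticMap.prod_apply] using hv), H5.spin_refl hv]
      simp [QuadraticMap.prod_apply]
  have h1' : ∀ k ∈ H5.reflGroup Q', H5.spin _ (prodHom Q Q' (1, k)) = H5.spin Q' k := by
    intro k hk
    refine H5.reflGroup_induction
      (p := fun k => H5.spin _ (prodHom Q Q' (1, k)) = H5.spin Q' k) ?_ ?_ hk
    · rw [Prod.mk_one_one, map_one, map_one, map_one]
    · intro v k hv _ ih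
      rw [show (((1 : H5.orth Q), H5.refl Q' v * k) : H5.orth Q × H5.orth Q') =
        (1, H5.refl Q' v) * (1, k) by simp, map_mul, map_mul, ih, map_mul, prodHom_refl_right,
        H5.spin_refl (by simpa [QuadraticMap.prod_apply] using hv), H5.spin_refl hv]
      simp [QuadraticMap.prod_apply]
  rw [show (g, g') = (g, (1 : H5.orth Q')) * ((1 : H5.orth Q), g') by simp, map_mul, map_mul,
    h1 g (by rw [reflGroup_top h2 hQ]; trivial), h1' g' (by rw [reflGroup_top h2 hQ']; trivial)]

theorem inOmega_prodHom (h2 : (2 : F) ≠ 0) (hQ : (polarBilin Q).Nondegenerate)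
    (hQ' : (polarBilin Q').Nondegenerate) {g : H5.orth Q} {g' : H5.orth Q'} (hg : InOmega Q g)
    (hg' : InOmega Q' g') : InOmega _ (prodHom Q Q' (g, g')) :=
  ⟨by rw [det_prodHom, hg.1, hg'.1, mul_one], by rw [spin_prodHom h2 hQ hQ', hg.2, hg'.2, mul_one]⟩

end Prod

section Transport

/-- Isometric spaces have isomorphic orthogonal groups. -/
def orthCongr {Q : QuadraticForm F V} {Q' : QuadraticForm F V'} (e : V ≃ₗ[F] V')
    (he : ∀ v, Q' (e v) = Q v) : H5.orth Q ≃* H5.orth Q' where
  toFun g := ⟨e.symm.trans ((g : V ≃ₗ[F] V).trans e), fun x => by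
    simp only [LinearEquiv.trans_apply, he, H5.orth_map]
    rw [← he, e.apply_symm_apply]⟩
  invFun g := ⟨e.trans ((g : V' ≃ₗ[F] V').trans e.symm), fun x => by
    simp only [LinearEquiv.trans_apply]
    rw [← he, e.apply_symm_apply, H5.orth_map, he]⟩
  left_inv g := H5.orth_ext fun x => by simp
  right_inv g := H5.orth_ext fun x => by simp
  map_mul' g k := H5.orth_ext fun x => by simp [LinearEquiv.mul_apply]

theorem orthCongr_apply {Q : QuadraticForm F V} {Q' : QuadraticForm F V'} (e : V ≃ₗ[F] V')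
    (he : ∀ v, Q' (e v) = Q v) (g : H5.orth Q) (x : V') :
    (orthCongr e he g : V' ≃ₗ[F] V') x = e ((g : V ≃ₗ[F] V) (e.symm x)) := rfl

/-- Similar forms have the same orthogonal group. -/
def orthSmul (Q : QuadraticForm F V) {c : F} (hc : c ≠ 0) : H5.orth Q ≃* H5.orth (c • Q) :=
  MulEquiv.subgroupCongr (Subgroup.ext fun g => by
    simp only [H5.mem_orth, smul_apply, smul_eq_mul]
    exact ⟨fun h x => by rw [h], fun h x => mul_left_cancel₀ hc (h x)⟩)

theorem commutator_map_equiv {G G' : Type*} [Group G] [Group G'] (φ : G ≃* G') {g : G}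
    (hg : g ∈ commutator G) : φ g ∈ commutator G' := by
  have h : φ g ∈ (commutator G).map φ.toMonoidHom := ⟨g, hg, rfl⟩
  rw [commutator_def, Subgroup.map_commutator] at h
  rw [commutator_def]
  exact Subgroup.commutator_mono le_top le_top h

end Transport

end Cfsg.Agent.H18.SpecNine
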