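import Mathlib

/-!
A finite calculus of the maximal orders: a power of the characteristic and a set of cyclic factors.
-/

set_option autoImplicit false

namespace Cfsg.Agent.H18.SpecNine

/-- A power of the characteristic with a list of atoms among
`2, q-1, q+1, q²+1, q²-1, q³-1, q³+1`. -/
abbrev Vl := ℕ × List (Fin 7)

/-- The seven atoms. -/
def atomVal (q : ℕ) : Fin 7 → ℕ :=
  ![2, q - 1, q + 1, q ^ 2 + 1, q ^ 2 - 1, q ^ 3 - 1, q ^ 3 + 1]

/-- Divisibility between atoms. -/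
def dom (x y : Fin 7) : Bool :=
  x == y || x == 0 || (x == 1 && (y == 4 || y == 5)) || (x == 2 && (y == 4 || y == 6))

/-- The least common multiple of atoms. -/
def lc (q : ℕ) : List (Fin 7) → ℕ
  | [] => 1
  | x :: l => Nat.lcm (atomVal q x) (lc q l)

/-- The number of a value. -/
def vval (q p : ℕ) (v : Vl) : ℕ := p ^ v.1 * lc q v.2

/-- Domination. -/
def below (v z : Vl) : Bool := decide (v.1 ≤ z.1) && v.2.all fun x => z.2.any fun y => dom x y

theorem dom_dvd {q : ℕ} (hq : Odd q) {x y : Fin 7} (h : dom x y = true) :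
    atomVal q x ∣ atomVal q y := by
  have hq1 : 1 ≤ q := hq.pos
  have a2 : q - 1 ∣ q ^ 2 - 1 := by simpa using Nat.sub_dvd_pow_sub_pow q 1 2
  have a3 : q - 1 ∣ q ^ 3 - 1 := by simpa using Nat.sub_dvd_pow_sub_pow q 1 3
  have b2 : q + 1 ∣ q ^ 2 - 1 := ⟨q - 1, by rw [← Nat.sq_sub_sq, one_pow]⟩
  have b3 : q + 1 ∣ q ^ 3 + 1 := ⟨q * (q - 1) + 1, by
    obtain ⟨k, rfl⟩ : ∃ k, q = k + 1 := ⟨q - 1, by omega⟩
    rw [Nat.add_sub_cancel]; ring⟩
  have h2 : ∀ z : Fin 7, 2 ∣ atomVal q z := by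
    obtain ⟨c, rfl⟩ := hq
    intro z
    fin_cases z <;>
      simp [atomVal, Nat.dvd_iff_mod_eq_zero, Nat.add_mod, Nat.pow_mod, Nat.mul_mod]
    · have e : (2 * c + 1) ^ 2 - 1 = 2 * (c * (2 * c + 2)) := by
        have : (2 * c + 1) ^ 2 = 2 * (c * (2 * c + 2)) + 1 := by ring
        omega
      omega
    · have e : (2 * c + 1) ^ 3 = 2 * (c * (4 * c ^ 2 + 6 * c + 3)) + 1 := by ring
      omega
  revert h
  fin_cases x <;> fin_cases y <;> simp [dom] <;>
    first | exact h2 _ | exact a2 | exact a3 | exact b2 | exact b3 | exact dvd_rfl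

theorem dvd_lc {q : ℕ} {y : Fin 7} : ∀ {l : List (Fin 7)}, y ∈ l → atomVal q y ∣ lc q l := by
  intro l
  induction l with
  | nil => intro h; simp at h
  | cons z l ih =>
    intro h
    rcases List.mem_cons.1 h with rfl | h
    · exact Nat.dvd_lcm_left _ _
    · exact (ih h).trans (Nat.dvd_lcm_right _ _)

theorem lc_dvd {q N : ℕ} : ∀ {l : List (Fin 7)}, (∀ y ∈ l, atomVal q y ∣ N) → lc q l ∣ N := by
  intro l
  induction l with
  | nil => intro _; exact one_dvd _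
  | cons z l ih =>
    intro h
    exact Nat.lcm_dvd (h z (List.mem_cons_self ..)) (ih fun y hy => h y (List.mem_cons_of_mem _ hy))

theorem vval_dvd {q p : ℕ} (hq : Odd q) {v z : Vl} (h : below v z = true) :
    vval q p v ∣ vval q p z := by
  simp only [below, Bool.and_eq_true, decide_eq_true_eq, List.all_eq_true, List.any_eq_true] at h
  refine mul_dvd_mul (pow_dvd_pow p h.1) (lc_dvd fun x hx => ?_)
  obtain ⟨y, hy, hd⟩ := h.2 x hx
  exact (dom_dvd hq hd).trans (dvd_lc hy)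

/-- Power of the characteristic needed for a multiplicity. -/
def lg (P j : ℕ) : ℕ := if j ≤ 1 then 0 else if j ≤ P then 1 else 2

theorem le_pow_lg {p P j : ℕ} (hP : P ≤ p) (hp : 3 ≤ p) (hj : j ≤ 9) : j ≤ p ^ lg P j := by
  unfold lg
  split_ifs with h1 h2
  · simpa using h1
  · rw [pow_one]; omega
  · have : 9 ≤ p ^ 2 := by nlinarith
    omega

/-- The atoms of a self dual factor (`true`) or a dual pair (`false`). -/
def atomOf : ℕ → Bool → List (Fin 7)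
  | 1, true => [2]
  | 1, false => [1]
  | 2, true => [3]
  | 2, false => [4]
  | 3, true => [6]
  | 3, false => [5]
  | 4, false => [3, 4]
  | _, _ => []

/-- What half a weight may need without the roots one and minus one. -/
def wts (P : ℕ) : ℕ → List Vl
  | 0 => [(0, [])]
  | 1 => [(0, [1]), (0, [2])]
  | 2 => [(0, [4]), (0, [3]), (1, [1]), (1, [2])]
  | 3 => [(0, [5]), (0, [6]), (0, [3, 1]), (0, [3, 2]), (0, [4]), (1, [1, 2])]
  | 4 => [(0, [3, 4]), (0, [5, 2]), (0, [6, 1]), (1, [3, 1]), (1, [3, 2]), (1, [4]),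
      (lg P 4, [1]), (lg P 4, [2])]
  | _ => []

/-- The maximal values. -/
def tops (P : ℕ) : List Vl :=
  [(0, [3, 4]), (0, [6, 1]), (0, [5, 2]), (1, [3, 1]), (1, [3, 2]), (1, [4]), (lg P 4, [1, 2])] ++
    if P ≤ 5 then [(2, [0])] else []

theorem wts_closed : ∀ P ∈ [3, 5, 7], ∀ w : Fin 5, ∀ D : Fin 5, ∀ j : Fin 5, ∀ s : Bool,
    1 ≤ D.val → 1 ≤ j.val → j.val * D.val ≤ w.val → (D.val = 4 → s = false) →
    ∀ v ∈ wts P (w.val - j.val * D.val), ∃ z ∈ wts P w.val,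
      below (max v.1 (lg P j.val), atomOf D.val s ++ v.2) z = true := by
  decide +kernel

theorem tops_closed : ∀ P ∈ [3, 5, 7], ∀ r : Fin 5, ∀ v ∈ wts P (4 - r.val), ∃ z ∈ tops P,
    below (max v.1 (lg P (2 * r.val - 1)), (0 : Fin 7) :: v.2) z = true := by
  decide +kernel

theorem half_dvd_lcm {q : ℕ} (hq : Odd q) : (q ^ 4 - 1) / 2 ∣ lc q [3, 4] := by
  have h2 := Nat.dvd_sub (Nat.gcd_dvd_left (q ^ 2 + 1) (q ^ 2 - 1))
    (Nat.gcd_dvd_right (q ^ 2 + 1) (q ^ 2 - 1))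
  have hq1 : 1 ≤ q ^ 2 := Nat.one_le_pow _ _ hq.pos
  rw [show q ^ 2 + 1 - (q ^ 2 - 1) = 2 by omega] at h2
  have h4 : q ^ 4 - 1 ∣ 2 * Nat.lcm (q ^ 2 + 1) (q ^ 2 - 1) := by
    rw [show q ^ 4 - 1 = (q ^ 2) ^ 2 - 1 ^ 2 by rw [← pow_mul, one_pow],
      Nat.sq_sub_sq, ← Nat.gcd_mul_lcm (q ^ 2 + 1) (q ^ 2 - 1)]
    exact mul_dvd_mul_right h2 _
  have h5 : 2 ∣ q ^ 4 - 1 := by
    obtain ⟨c, hc⟩ := hq.pow (n := 4)
    omega
  obtain ⟨k, hk⟩ := h5
  rw [hk, Nat.mul_div_cancel_left _ two_pos]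
  rw [hk] at h4
  exact (Nat.dvd_of_mul_dvd_mul_left two_pos h4).trans
    (Nat.lcm_dvd (dvd_lc (y := 3) (by simp)) (dvd_lc (y := 4) (by simp)))

end Cfsg.Agent.H18.SpecNine
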