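import Cfsg.Agent.H18.SpecNine.Lift
import Cfsg.Agent.H18.SpecNine.Catalogue
import Cfsg.Agent.H59.OrthOrder

/-!
Orders of isometries of eight dimensions without fixed vectors, with two excluded configurations.
-/

set_option autoImplicit false
set_option linter.unusedSectionVars false

namespace Cfsg.Agent.H18.SpecNine

open Polynomial Cfsg.Agent

section
variable {F : Type*} [Field F] (p : ℕ) [Fact p.Prime] [CharP F p]

theorem xpow_mono {T T' : ℕ} (h : T ∣ T') : (X ^ T - 1 : F[X]) ∣ X ^ T' - 1 := by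
  obtain ⟨w, rfl⟩ := h
  exact pow_one_sub_dvd_pow_mul_sub_one X T w

theorem mul_dvd_xpow {P P' : F[X]} {T T' N : ℕ} (hc : IsCoprime P P')
    (h : P ∣ X ^ T - 1) (h' : P' ∣ X ^ T' - 1) (hT : T ∣ N) (hT' : T' ∣ N) :
    P * P' ∣ X ^ N - 1 :=
  hc.mul_dvd (h.trans (xpow_mono hT)) (h'.trans (xpow_mono hT'))

theorem pow_dvd_xpow {f : F[X]} {M j e : ℕ} (h : f ∣ X ^ M - 1) (hj : j ≤ p ^ e) :
    f ^ j ∣ X ^ (p ^ e * M) - 1 := by
  refine (pow_dvd_pow f hj).trans ?_
  have h2 := pow_dvd_pow_of_dvd h (p ^ e)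
  rwa [sub_pow_char_pow, one_pow, ← pow_mul, mul_comm M] at h2

variable [Fintype F]

local notation "dual" => H67.dualPoly (RingHom.id F)

/-- Two configurations excluded. -/
def Good (B : F[X]) : Prop :=
  (∀ f : F[X], f.Monic → Irreducible f → f ∣ B → f.natDegree ≠ 8) ∧
  ∀ f : F[X], f.Monic → Irreducible f → f ∣ B → dual f ≠ f → f.natDegree = 4 →
    f ∣ X ^ ((Fintype.card F ^ 4 - 1) / 2) - 1

theorem Good.of_dvd {B B' : F[X]} (h : Good B) (hd : B' ∣ B) : Good B' :=
  ⟨fun f a b c => h.1 f a b (c.trans hd), fun f a b c => h.2 f a b (c.trans hd)⟩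

variable {P : ℕ}

/-- A self reciprocal polynomial without roots `±1` of degree at most `8`. -/
theorem budget (hq : Odd (Fintype.card F)) (hP : P ∈ [3, 5, 7]) (hPp : P ≤ p) (hp : 3 ≤ p)
    (B : F[X]) (hm : B.Monic) (h0 : B.coeff 0 ≠ 0) (hd : dual B = B)
    (h1 : ∀ c : F, c * c = 1 → ¬ (X - C c) ∣ B) (h8 : B.natDegree ≤ 8) (hg : Good B) :
    ∃ w, B.natDegree = 2 * w ∧ ∃ v ∈ wts P w, B ∣ X ^ vval (Fintype.card F) p v - 1 := by
  classical
  set q := Fintype.card F with hqdef
  induction hn : B.natDegree using Nat.strong_induction_on generalizing B with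
  | _ n ih =>
    subst hn
    by_cases hB : B.natDegree = 0
    · obtain rfl := hm.natDegree_eq_zero.mp hB
      exact ⟨0, hB, _, List.mem_singleton.2 rfl, one_dvd _⟩
    obtain ⟨f, hfm, hf, hfB⟩ := Polynomial.exists_monic_irreducible_factor B
      (fun h => hB (natDegree_eq_zero_of_isUnit h))
    have : Fact (Irreducible f) := ⟨hf⟩
    have hf0 : f.coeff 0 ≠ 0 := by
      obtain ⟨u, hu⟩ := hfB
      intro h
      exact h0 (by rw [hu, mul_coeff_zero, h, zero_mul])
    obtain ⟨b₁, hb₁, hfb₁⟩ :=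
      (FiniteMultiplicity.of_prime_left hf.prime hm.ne_zero).exists_eq_pow_mul_and_not_dvd
    set j := multiplicity f B
    have hj : 1 ≤ j := Nat.one_le_iff_ne_zero.mpr fun h => by
      rw [h, pow_zero, one_mul] at hb₁
      exact hfb₁ (hb₁ ▸ hfB)
    -- enlarging a value by one atom
    have fin : ∀ (u D : ℕ) (s : Bool), 1 ≤ D → j * D + u ≤ 4 → (D = 4 → s = false) → ∀ v ∈ wts P u,
        ∃ z ∈ wts P (j * D + u), p ^ lg P j * lc q (atomOf D s) ∣ vval q p z ∧
          vval q p v ∣ vval q p z := by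
      intro u D s hD hle hDs v hv
      have hj4 : j < 5 := by nlinarith
      have hD4 : D < 5 := by nlinarith
      obtain ⟨z, hz, hzb⟩ := wts_closed P hP ⟨j * D + u, by omega⟩ ⟨D, hD4⟩ ⟨j, hj4⟩ s hD hj
        (show j * D ≤ j * D + u by omega) hDs v (by rwa [show j * D + u - j * D = u by omega])
      have hdv := vval_dvd (p := p) hq hzb
      refine ⟨z, hz, dvd_trans (mul_dvd_mul (pow_dvd_pow p (le_max_right v.1 _)) ?_) hdv,
        dvd_trans (mul_dvd_mul (pow_dvd_pow p (le_max_left _ (lg P j))) ?_) hdv⟩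
      · exact lc_dvd fun y hy => dvd_lc (List.mem_append_left _ hy)
      · exact lc_dvd fun y hy => dvd_lc (List.mem_append_right _ hy)
    set f' := dual f with hf'def
    by_cases heq : f' = f
    · rcases H71.SympBlocks.root_pow_of_self_dual hfm hf0 heq with ⟨hd1, hsq⟩ | ⟨D, hD, hdeg, hroot⟩
      · exfalso
        obtain ⟨c, hc, hdv⟩ := H71.SympBlocks.exists_scalar (f := f) (N := 1) (by rwa [pow_one])
        rw [pow_one] at hdv
        exact h1 c hc ((eq_of_monic_of_associated hfm (monic_X_sub_C c)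
          (hf.associated_of_dvd (irreducible_X_sub_C c) hdv)) ▸ hfB)
      have hb₁m : b₁.Monic := (hfm.pow j).of_mul_monic_left (hb₁ ▸ hm)
      have hb₁d : dual b₁ = b₁ := by
        have := hd
        rw [hb₁, H67.dualPoly_mul, H67.dualPoly_pow, ← hf'def, heq] at this
        exact mul_left_cancel₀ (pow_ne_zero _ hf.ne_zero) this
      have hdegB : B.natDegree = j * (2 * D) + b₁.natDegree := by
        rw [hb₁, natDegree_mul (pow_ne_zero _ hf.ne_zero) hb₁m.ne_zero, natDegree_pow, hdeg]
      have hlt : b₁.natDegree < B.natDegree := by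
        have : 0 < j * (2 * D) := Nat.mul_pos (by omega) (by omega)
        omega
      obtain ⟨u, hu, v, hv, hvd⟩ := ih _ hlt b₁ hb₁m
        (fun h => h0 (by rw [hb₁, mul_coeff_zero, h, mul_zero])) hb₁d
        (fun c hc h => h1 c hc (hb₁ ▸ h.mul_left _)) (by omega) (hg.of_dvd ⟨_, hb₁.trans (mul_comm _ _)⟩) rfl
      have hw : B.natDegree = 2 * (j * D + u) := by rw [hdegB, hu]; ring
      have hD4 : D ≠ 4 := fun h => hg.1 f hfm hf hfB (by rw [hdeg, h])
      obtain ⟨z, hz, hz1, hz2⟩ := fin u D true hD (by omega) (fun h => absurd h hD4) v hv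
      refine ⟨_, hw, z, hz, ?_⟩
      have hlc : q ^ D + 1 ∣ lc q (atomOf D true) := by
        have : D ≤ 3 := by
          have : D ≤ 4 := by nlinarith
          omega
        interval_cases D <;> simp [atomOf, lc, atomVal]
      have hfr : f ∣ X ^ lc q (atomOf D true) - 1 := by
        refine dvd_trans ?_ (xpow_mono hlc)
        rw [← AdjoinRoot.mk_eq_zero, map_sub, map_pow, AdjoinRoot.mk_X, hroot, map_one, sub_self]
      have hj9 : j ≤ 9 := by nlinarith
      rw [hb₁]
      exact mul_dvd_xpow ((hf.coprime_iff_not_dvd).mpr hfb₁).pow_left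
        (pow_dvd_xpow p hfr (le_pow_lg hPp hp hj9)) hvd hz1 hz2
    · have hσσ : ∀ x, RingHom.id F (RingHom.id F x) = x := fun x => rfl
      have hf' : Irreducible f' := H67.dualPoly_irreducible hσσ hfm hf0 hf
      have hf'm : f'.Monic := H67.dualPoly_monic hf0
      have hf'' : dual f' = f := H67.dualPoly_dualPoly hσσ hfm hf0
      have hff' : IsCoprime f f' := (hf.coprime_iff_not_dvd).mpr fun h =>
        heq (eq_of_monic_of_associated hf'm hfm (hf.associated_of_dvd hf' h).symm)
      have hχ' : B = f' ^ j * dual b₁ := by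
        conv_lhs => rw [← hd, hb₁, H67.dualPoly_mul, H67.dualPoly_pow]
      obtain ⟨b₂, hb₂⟩ : f' ^ j ∣ b₁ := by
        have h : f' ^ j ∣ f ^ j * b₁ := hb₁ ▸ ⟨_, hχ'⟩
        exact (hff'.symm.pow (m := j) (n := j)).dvd_of_dvd_mul_left h
      have hB2 : B = (f * f') ^ j * b₂ := by rw [hb₁, hb₂, mul_pow, mul_assoc]
      have hb₂d : dual b₂ = b₂ := by
        have := hd
        rw [hB2, H67.dualPoly_mul, H67.dualPoly_pow, H67.dualPoly_mul, ← hf'def, hf'', mul_comm f'] at this
        exact mul_left_cancel₀ (pow_ne_zero _ (mul_ne_zero hf.ne_zero hf'.ne_zero)) this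
      have hnf : ¬ f ∣ b₂ := fun h => hfb₁ (hb₂ ▸ h.mul_left _)
      have hnf' : ¬ f' ∣ b₂ := by
        rintro ⟨u, hu⟩
        refine hnf ⟨dual u, ?_⟩
        rw [← hb₂d, hu, H67.dualPoly_mul, hf'']
      have hb₂m : b₂.Monic := ((hfm.mul hf'm).pow j).of_mul_monic_left (hB2 ▸ hm)
      set d := f.natDegree with hddef
      have hd1 : 1 ≤ d := hf.natDegree_pos
      have hdegB : B.natDegree = 2 * (j * d) + b₂.natDegree := by
        rw [hB2, natDegree_mul (pow_ne_zero _ (mul_ne_zero hf.ne_zero hf'.ne_zero)) hb₂m.ne_zero,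
          natDegree_pow, natDegree_mul hf.ne_zero hf'.ne_zero, hf'def, H67.dualPoly_natDegree hf0]
        ring
      have hlt : b₂.natDegree < B.natDegree := by
        have : 0 < j * d := Nat.mul_pos (by omega) (by omega)
        omega
      obtain ⟨u, hu, v, hv, hvd⟩ := ih _ hlt b₂ hb₂m
        (fun h => h0 (by rw [hB2, mul_coeff_zero, h, mul_zero])) hb₂d
        (fun c hc h => h1 c hc (hB2 ▸ h.mul_left _)) (by omega) (hg.of_dvd ⟨_, hB2.trans (mul_comm _ _)⟩) rfl
      have hw : B.natDegree = 2 * (j * d + u) := by rw [hdegB, hu]; ring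
      obtain ⟨z, hz, hz1, hz2⟩ := fin u d false hd1 (by omega) (fun _ => rfl) v hv
      refine ⟨_, hw, z, hz, ?_⟩
      have hfr : f ∣ X ^ lc q (atomOf d false) - 1 := by
        by_cases hd4 : d = 4
        · rw [hd4]
          exact (hg.2 f hfm hf hfB heq hd4).trans (xpow_mono (half_dvd_lcm hq))
        refine dvd_trans (b := X ^ (q ^ d - 1) - 1) ?_ (xpow_mono ?_)
        · have : Module.Finite F (AdjoinRoot f) := hfm.finite_adjoinRoot
          have : Finite (AdjoinRoot f) := Module.finite_of_finite F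
          have := Fintype.ofFinite (AdjoinRoot f)
          have hfin : Module.finrank F (AdjoinRoot f) = d := finrank_quotient_span_eq_natDegree
          have hcard : Fintype.card (AdjoinRoot f) = q ^ d := by
            rw [Module.card_eq_pow_finrank (K := F), hfin]
          have hα0 : AdjoinRoot.root f ≠ 0 := by
            intro h
            have h2 : Polynomial.aeval (AdjoinRoot.root f) f = 0 := by
              rw [AdjoinRoot.aeval_eq, AdjoinRoot.mk_self]
            rw [h] at h2
            simp [Polynomial.aeval_def] at h2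
            exact hf0 h2
          rw [← AdjoinRoot.mk_eq_zero, map_sub, map_pow, AdjoinRoot.mk_X, ← hcard,
            FiniteField.pow_card_sub_one_eq_one _ hα0, map_one, sub_self]
        · have : d ≤ 3 := by
            have : d ≤ 4 := by nlinarith
            omega
          interval_cases d <;> simp [atomOf, lc, atomVal]
      have hfr' : f * f' ∣ X ^ lc q (atomOf d false) - 1 := by
        refine hff'.mul_dvd hfr ?_
        have h := H71.SympBlocks.dual_dvd hf (N := lc q (atomOf d false)) (one_mul (1 : F))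
          (by rw [map_one]; exact hfr)
        rwa [map_one] at h
      have hj9 : j ≤ 9 := by nlinarith
      rw [hB2]
      exact mul_dvd_xpow
        (((hf.coprime_iff_not_dvd).mpr hnf).mul_left ((hf'.coprime_iff_not_dvd).mpr hnf')).pow_left
        (pow_dvd_xpow p hfr' (le_pow_lg hPp hp hj9)) hvd hz1 hz2

end

open QuadraticMap Module H66.SpSplit

/-- The order of an isometry of eight dimensions without fixed vectors. -/
theorem exists_tops {F : Type*} [Field F] [Fintype F] (p : ℕ) [Fact p.Prime] [CharP F p]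
    (h2 : (2 : F) ≠ 0) {P : ℕ} (hP : P ∈ [3, 5, 7]) (hPp : P ≤ p)
    {V : Type*} [AddCommGroup V] [Module F V] [Finite V] {Q : QuadraticForm F V}
    (hQ : (polarBilin Q).Nondegenerate) (hV : finrank F V = 8) {g : H5.orth Q}
    (hfix : ∀ x, (g : V ≃ₗ[F] V) x = x → x = 0) (hgood : Good (lin Q g).charpoly) :
    ∃ z ∈ tops P, orderOf g ∣ vval (Fintype.card F) p z := by
  classical
  have hp : p.Prime := Fact.out
  have hp2 : p ≠ 2 := fun h => h2 (by subst h; exact_mod_cast CharP.cast_eq_zero F 2)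
  have hp3 : 3 ≤ p := by have := hp.two_le; omega
  have hq : Odd (Fintype.card F) := by
    obtain ⟨k, -, hk⟩ := FiniteField.card F p
    exact hk ▸ (hp.odd_of_ne_two hp2).pow
  set T := lin Q g with hT
  let c := Module.finBasis F V
  set χ := T.charpoly with hχdef
  have hχm : χ.Monic := T.charpoly_monic
  set M := LinearMap.toMatrix c c T with hM
  set G := LinearMap.BilinForm.toMatrix c (polarBilin Q) with hG
  have hMG : M.transpose * G * M = G := by
    rw [hM, hG, ← LinearMap.BilinForm.toMatrix_comp (c := c)]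
    congr 1
    exact LinearMap.ext fun x => LinearMap.ext fun y => H5.orth_polar g x y
  have hMχ : M.charpoly = χ := LinearMap.charpoly_toMatrix T c
  obtain ⟨hχ0, hχdual⟩ : χ.coeff 0 ≠ 0 ∧ H67.dualPoly (RingHom.id F) χ = χ := hMχ ▸
    H59.OrthOrder.charpoly_dual M G
      (isUnit_iff_ne_zero.2 ((LinearMap.BilinForm.nondegenerate_iff_det_ne_zero c).1 hQ)) hMG
  have hχd : χ.natDegree = 8 := (T.charpoly_natDegree).trans hV
  -- no root one
  have hroot1 : ¬ (X - C (1 : F)) ∣ χ := by
    intro h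
    rw [dvd_iff_isRoot, ← Module.End.hasEigenvalue_iff_isRoot_charpoly] at h
    obtain ⟨x, hx⟩ := h.exists_hasEigenvector
    exact hx.2 (hfix x (by simpa [hT, lin_apply] using hx.apply_eq_smul))
  obtain ⟨B, hB, hBn⟩ := χ.exists_eq_pow_rootMultiplicity_mul_and_not_dvd hχm.ne_zero (-1 : F)
  set a := χ.rootMultiplicity (-1 : F) with ha
  have hBm : B.Monic := ((monic_X_sub_C (-1 : F)).pow a).of_mul_monic_left (hB ▸ hχm)
  have hBd : H67.dualPoly (RingHom.id F) B = B := by
    have h := hχdual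
    rw [hB, H67.dualPoly_mul, H67.dualPoly_pow, H2.SpOrder.dual_X_sub_C (c := (-1 : F)) (by ring)] at h
    exact mul_left_cancel₀ (pow_ne_zero _ (X_sub_C_ne_zero (-1 : F))) h
  have hB1 : ∀ c : F, c * c = 1 → ¬ (X - C c) ∣ B := by
    intro c hc
    rcases mul_self_eq_one_iff.mp hc with rfl | rfl
    · exact fun h => hroot1 (hB ▸ h.mul_left _)
    · exact hBn
  have hdeg : a + B.natDegree = 8 := by
    rw [← hχd, hB, natDegree_mul (pow_ne_zero _ (X_sub_C_ne_zero (-1 : F))) hBm.ne_zero, natDegree_pow,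
      natDegree_X_sub_C, mul_one]
  obtain ⟨w, hw, v, hv, hvd⟩ := budget p hq hP hPp hp3 B hBm
    (fun h => hχ0 (by rw [hB, mul_coeff_zero, h, mul_zero])) hBd hB1 (by omega)
    (hgood.of_dvd (show B ∣ χ from ⟨_, hB.trans (mul_comm _ _)⟩))
  obtain ⟨z, hz, hzb⟩ := tops_closed P hP ⟨4 - w, by omega⟩ v
    (by rwa [show 4 - (4 - w) = w by omega])
  refine ⟨z, hz, dvd_trans ?_ (vval_dvd hq hzb)⟩
  set r := 4 - w with hr
  set N := vval (Fintype.card F) p (max v.1 (lg P (2 * r - 1)), (0 : Fin 7) :: v.2) with hN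
  -- the polynomial that annihilates
  have hC : (X - C (-1 : F)) ^ (2 * r - 1) * B ∣ X ^ N - 1 := by
    refine mul_dvd_xpow (((irreducible_X_sub_C (-1 : F)).coprime_iff_not_dvd).mpr hBn).pow_left
      (pow_dvd_xpow p (M := 2) ?_ (le_pow_lg hPp hp3 (j := 2 * r - 1) (by omega))) hvd ?_ ?_
    · exact ⟨X - C 1, by simp; ring⟩
    · exact mul_dvd_mul (pow_dvd_pow p (le_max_right _ _))
        (dvd_lc (y := (0 : Fin 7)) (List.mem_cons_self ..))
    · exact mul_dvd_mul (pow_dvd_pow p (le_max_left _ _))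
        (lc_dvd fun y hy => dvd_lc (List.mem_cons_of_mem _ hy))
  have hkill : aeval T ((X - C (-1 : F)) ^ (2 * r - 1) * B) = 0 := by
    have hsys := (H66.OrthSpin.isOSys_endHom hQ g).neg
    change H66.OrthSplit.IsOSys (polarBilin Q) (-T) at hsys
    have hpl : ∀ k, aeval T ((X - C (-1 : F)) ^ k) = (T + 1) ^ k := fun k => by simp
    have hneg : ∀ k x, ((-T - 1) ^ k) x = (-1 : F) ^ k • ((T + 1) ^ k) x := fun k x => by
      rw [show -T - 1 = (-1 : F) • (T + 1) by rw [neg_smul, one_smul]; abel, _root_.smul_pow,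
        LinearMap.smul_apply]
    have hle : fixPart (-T) ≤ T.maxGenEigenspace (-1 : F) := fun x hx => by
      rw [Module.End.mem_maxGenEigenspace]
      refine ⟨finrank F V, ?_⟩
      have h1 := hneg (finrank F V) x
      rw [LinearMap.mem_ker.1 hx] at h1
      rw [show T - (-1 : F) • 1 = T + 1 by rw [neg_smul, one_smul, sub_neg_eq_add]]
      exact (smul_eq_zero.1 h1.symm).resolve_left (pow_ne_zero _ (by simp))
    have hd' : finrank F (fixPart (-T)) ≤ 2 * r := by
      refine (Submodule.finrank_mono hle).trans ?_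
      rw [LinearMap.finrank_maxGenEigenspace_eq, ← hχdef, ← ha]
      omega
    have hnil := fixEnd_isNilpotent (-T)
    have hzero : (fixEnd (-T) - 1) ^ (2 * r - 1) = 0 := by
      rcases Nat.even_or_odd (finrank F (fixPart (-T))) with ⟨m, hm⟩ | hodd
      · refine pow_eq_zero_of_le (m := 2 * m - 1) (by omega) ?_
        exact sub_one_pow_eq_zero_of_even h2 _ hsys.fix.1
          (fun x y => QuadraticMap.polar_comm _ (x : V) (y : V)) _
          (fun x y => hsys.2.2 (x : V) (y : V)) hnil (by omega)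
      · obtain ⟨s, hs⟩ := hnil
        refine pow_eq_zero_of_le (m := finrank F (fixPart (-T))) ?_ ?_
        · obtain ⟨e, he⟩ := hodd; omega
        · refine LinearMap.ker_eq_top.1 (top_le_iff.1 ?_)
          rw [← LinearMap.ker_eq_top.2 hs]
          exact Module.End.ker_pow_le_ker_pow_finrank _ s
    refine LinearMap.ext fun x => ?_
    rw [map_mul, hpl, Module.End.mul_apply, LinearMap.zero_apply]
    set y := aeval T B x
    have hy2 : ((T + 1) ^ a) y = 0 := by
      rw [← hpl, ← Module.End.mul_apply, ← map_mul, ← hB, hχdef, LinearMap.aeval_self_charpoly,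
        LinearMap.zero_apply]
    have hy : y ∈ fixPart (-T) := by
      refine LinearMap.mem_ker.2 ?_
      rw [hneg, ← Nat.sub_add_cancel (show a ≤ finrank F V by omega), pow_add (T + 1),
        Module.End.mul_apply, hy2, map_zero, smul_zero]
    have h := sub_one_pow_fixEnd (-T) (2 * r - 1) ⟨y, hy⟩
    rw [hzero, LinearMap.zero_apply, ZeroMemClass.coe_zero, hneg] at h
    exact (smul_eq_zero.1 h.symm).resolve_left (pow_ne_zero _ (by simp))
  refine orderOf_dvd_of_pow_eq_one (lin_injective Q ?_)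
  rw [map_pow, map_one, ← hT]
  obtain ⟨u, hu⟩ := hC
  have h := congrArg (aeval T) hu
  rw [map_mul, hkill, zero_mul, map_sub, map_pow, aeval_X, map_one, sub_eq_zero] at h
  exact h

end Cfsg.Agent.H18.SpecNine
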