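import Cfsg.Agent.H18.SpecNine.Realize

/-!
Exchanging unipotent blocks against translations.
-/

set_option autoImplicit false
set_option linter.unusedSectionVars false

namespace Cfsg.Agent.H18.SpecNine

open QuadraticMap Module Cfsg.Agent

variable {F : Type*} [Field F] [Fintype F] (p : ℕ) [Fact p.Prime] [CharP F p]
variable {V V' : Type*} [AddCommGroup V] [Module F V] [AddCommGroup V'] [Module F V']
  [Finite V] [Finite V']

theorem sub_one_pow_char (T : Module.End F V) (r : ℕ) : (T - 1) ^ p ^ r = T ^ p ^ r - 1 := by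
  open Polynomial in
  have h : ((X : F[X]) - 1) ^ p ^ r = X ^ p ^ r - 1 := by rw [sub_pow_char_pow, one_pow]
  simpa using congrArg (Polynomial.aeval T) h

/-- A unipotent isometry of nilpotency at most `p ^ r`. -/
theorem pow_eq_one_of_nil {Q : QuadraticForm F V} {u : H5.orth Q} {j r : ℕ}
    (h : (lin Q u - 1) ^ j = 0) (hj : j ≤ p ^ r) : u ^ p ^ r = 1 := by
  refine lin_injective Q ?_
  rw [map_pow, map_one, ← sub_eq_zero, ← sub_one_pow_char p (lin Q u) r]
  exact pow_eq_zero_of_le hj h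

theorem geomS_prodMap (f : Module.End F V) (f' : Module.End F V') (n : ℕ) (x : V × V') :
    geomS (f.prodMap f') n x = (geomS f n x.1, geomS f' n x.2) := by
  have hp : ∀ i : ℕ, ((f.prodMap f') ^ i : Module.End F (V × V')) x = ((f ^ i) x.1, (f' ^ i) x.2) := by
    intro i
    induction i with
    | zero => rfl
    | succ i ih => rw [pow_succ', Module.End.mul_apply, ih, pow_succ', pow_succ']; rfl
  simp only [geomS, LinearMap.sum_apply, hp]
  refine Prod.ext ?_ ?_ <;> simp [Prod.fst_sum, Prod.snd_sum]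

theorem geomS_zero_right (T : Module.End F V) (n : ℕ) : geomS T n 0 = 0 := map_zero _

theorem geomS_one (n : ℕ) (x : V) : geomS (1 : Module.End F V) n x = (n : F) • x := by
  simp [geomS, LinearMap.sum_apply, Nat.cast_smul_eq_nsmul]

theorem orderOf_prodHom {Q : QuadraticForm F V} {Q' : QuadraticForm F V'} (g : H5.orth Q)
    (g' : H5.orth Q') : orderOf (prodHom Q Q' (g, g')) = Nat.lcm (orderOf g) (orderOf g') := by
  rw [orderOf_injective _ (prodHom_injective Q Q'), Prod.orderOf]

theorem inOmega_one (Q : QuadraticForm F V) : InOmega Q (1 : H5.orth Q) :=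
  ⟨by rw [map_one, map_one], map_one _⟩

section

variable {W : Type*} [AddCommGroup W] [Module F W] [Finite W]

/-- No translation needed. -/
theorem realSemi_zero (h2 : (2 : F) ≠ 0) {X : QuadraticForm F W} {Y : QuadraticForm F V'}
    (hX : (polarBilin X).Nondegenerate) {b : H5.orth X} (hb : InOmega X b)
    (e : W ≃ₗ[F] V') (he : ∀ v, Y (e v) = X v) : RealSemi Y (orderOf b) :=
  RealSemi.transfer h2 hX e he ⟨b, hb, 0, fun _ hn _ => orderOf_dvd_of_pow_eq_one hn⟩

/-- A translation multiplies the order by `p`. -/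
theorem realSemi_one (h2 : (2 : F) ≠ 0) {X : QuadraticForm F W} {Y : QuadraticForm F V'}
    (hX : (polarBilin X).Nondegenerate) (hY : (polarBilin Y).Nondegenerate) {b : H5.orth X}
    (hb : InOmega X b) (hdim : finrank F W < finrank F V') :
    RealSemi Y (Nat.lcm (orderOf b) p) := by
  obtain ⟨r, hr⟩ : ∃ r, finrank F W + (r + 1) = finrank F V' := ⟨finrank F V' - finrank F W - 1, by omega⟩
  obtain ⟨D, hD, e, he⟩ := exists_filler h2 hX hY hr
  refine RealSemi.transfer h2 (H67.prod_nondegenerate hX hD) e he ?_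
  refine ⟨prodHom X D (b, 1), inOmega_prodHom h2 hX hD hb (inOmega_one D),
    (0, Pi.single 0 1), fun n hn hv => Nat.lcm_dvd ?_ ?_⟩
  · have := orderOf_dvd_of_pow_eq_one hn
    rw [orderOf_prodHom] at this
    exact (Nat.dvd_lcm_left _ _).trans this
  · rw [lin_prodHom, map_one, geomS_prodMap, geomS_one] at hv
    have h1 := congrFun (congrArg Prod.snd hv) 0
    exact (CharP.cast_eq_zero_iff F p n).1 (by simpa using h1)

/-- A translation on a block of size `p` multiplies the order by `p ^ 2`. -/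
theorem realSemi_two (h2 : (2 : F) ≠ 0) {X : QuadraticForm F W} {Y : QuadraticForm F V'}
    (hX : (polarBilin X).Nondegenerate) (hY : (polarBilin Y).Nondegenerate) {b : H5.orth X}
    (hb : InOmega X b) (hdim : finrank F W + p < finrank F V') :
    RealSemi Y (Nat.lcm (orderOf b) (p ^ 2)) := by
  have hp : p.Prime := Fact.out
  have hp2 : p ≠ 2 := fun h => h2 (by subst h; exact_mod_cast CharP.cast_eq_zero F 2)
  obtain ⟨l, rfl⟩ := hp.odd_of_ne_two hp2
  obtain ⟨u, hu⟩ := exists_block (F := F) l h2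
  have hZ := blockForm_nondegenerate (F := F) l h2
  have hup : u ^ (2 * l + 1) = 1 := by
    simpa using pow_eq_one_of_nil (2 * l + 1) (r := 1) ((hu _).2 (Nat.lt_succ_self _)) (by simp)
  have huo : InOmega _ u := inOmega_of_odd_pow h2 hZ ⟨l, rfl⟩ hup
  have hX' := H67.prod_nondegenerate hX hZ
  obtain ⟨r, hr⟩ : ∃ r, finrank F (W × (Fin (2 * l + 1) → F)) + (r + 1) = finrank F V' :=
    ⟨finrank F V' - finrank F W - (2 * l + 1) - 1, by simp; omega⟩
  obtain ⟨D, hD, e, he⟩ := exists_filler h2 hX' hY hr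
  refine RealSemi.transfer h2 (H67.prod_nondegenerate hX' hD) e he ?_
  obtain ⟨x, hx⟩ : ∃ x, ((lin _ u - 1) ^ (2 * l)) x ≠ 0 := by
    by_contra h
    push Not at h
    exact absurd ((hu _).1 (LinearMap.ext h)) (lt_irrefl _)
  refine ⟨prodHom _ D (prodHom X _ (b, u), 1),
    inOmega_prodHom h2 hX' hD (inOmega_prodHom h2 hX hZ hb huo) (inOmega_one D),
    ((0, x), 0), fun n hn hv => Nat.lcm_dvd ?_ ?_⟩
  · have := orderOf_dvd_of_pow_eq_one hn
    rw [orderOf_prodHom, orderOf_prodHom] at this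
    exact ((Nat.dvd_lcm_left _ _).trans (Nat.dvd_lcm_left _ _)).trans this
  · rw [lin_prodHom, lin_prodHom, geomS_prodMap, geomS_prodMap] at hv
    have hv' : geomS (lin _ u) n x = 0 := congrArg Prod.snd (congrArg Prod.fst hv)
    have hou : orderOf u = 2 * l + 1 := by
      refine orderOf_eq_prime hup fun h1 => hx ?_
      rw [h1, map_one, sub_self, zero_pow (by have := hp.two_le; omega), LinearMap.zero_apply]
    have hdn : orderOf u ∣ n := by
      have := orderOf_dvd_of_pow_eq_one hn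
      rw [orderOf_prodHom, orderOf_prodHom] at this
      exact ((Nat.dvd_lcm_right _ _).trans (Nat.dvd_lcm_left _ _)).trans this
    obtain ⟨m, rfl⟩ := hdn
    rw [hou] at hv' ⊢
    rw [Nat.mul_comm (2 * l + 1) m, geomS_mul (lin _ u) (by rw [← map_pow, hup, map_one]), LinearMap.smul_apply] at hv'
    have hgeo : geomS (lin _ u) (2 * l + 1) = (lin _ u - 1) ^ (2 * l) := by
      simpa [geomS] using geom_sum_eq_sub_one_pow (F := F) (2 * l + 1) (lin _ u) 1
    rw [hgeo] at hv'
    have hm := (CharP.cast_eq_zero_iff F (2 * l + 1) m).1 ((smul_eq_zero.1 hv').resolve_right hx)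
    rw [pow_two]
    exact mul_dvd_mul_left _ hm

/-- Completing by a scaled block of odd size. -/
theorem realOmega_block (h2 : (2 : F) ≠ 0) {X : QuadraticForm F W} {Y : QuadraticForm F V'}
    (hX : (polarBilin X).Nondegenerate) (hY : (polarBilin Y).Nondegenerate) {b : H5.orth X}
    (hb : InOmega X b) {l : ℕ} (hdim : finrank F W + (2 * l + 1) = finrank F V') (r : ℕ)
    (hr : r = 0 ∨ p ^ (r - 1) ≤ 2 * l) :
    RealOmega Y (Nat.lcm (orderOf b) (p ^ r)) := by
  classical
  have hp : p.Prime := Fact.out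
  have hp2 : p ≠ 2 := fun h => h2 (by subst h; exact_mod_cast CharP.cast_eq_zero F 2)
  obtain ⟨u, hu⟩ := exists_block (F := F) l h2
  have hZ := blockForm_nondegenerate (F := F) l h2
  have hR : u ^ p ^ (2 * l + 1) = 1 :=
    pow_eq_one_of_nil p ((hu _).2 (Nat.lt_succ_self _)) (Nat.lt_pow_self hp.one_lt).le
  have hou : p ^ r ∣ orderOf u := by
    rcases hr with rfl | hr
    · simp
    obtain ⟨k, -, hk⟩ := (Nat.dvd_prime_pow hp).1 (orderOf_dvd_of_pow_eq_one hR)
    rw [hk]
    refine pow_dvd_pow p ?_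
    by_contra hlt
    push Not at hlt
    have h1 : u ^ p ^ (r - 1) = 1 := orderOf_dvd_iff_pow_eq_one.1 (hk ▸ pow_dvd_pow p (by omega))
    have h3 : (lin _ u - 1) ^ p ^ (r - 1) = 0 := by
      rw [sub_one_pow_char p (lin _ u), ← map_pow, h1, map_one, sub_self]
    have := (hu _).1 h3
    omega
  let bX := Module.finBasis F W
  let bZ := Pi.basisFun F (Fin (2 * l + 1))
  let bY := Module.finBasis F V'
  set c := (H4.gram X bX).det * (H4.gram (blockForm (2 * l + 1)) bZ).det * (H4.gram Y bY).det with hc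
  have hc0 : c ≠ 0 := mul_ne_zero (mul_ne_zero (H4.det_gram_ne_zero hX bX) (H4.det_gram_ne_zero hZ bZ))
    (H4.det_gram_ne_zero hY bY)
  have hcZ := H4.nondegenerate_smul hc0 hZ
  obtain ⟨e, he⟩ := H4.isom_of_disc h2 (H67.prod_nondegenerate hX hcZ) hY
    (by simpa using hdim) (bX.prod bZ) bY ⟨c ^ (l + 1), by
      rw [det_gram_prod, H4.det_gram_smul, Fintype.card_fin, ← pow_add]
      rw [show c ^ (2 * l + 1) = c ^ (l + l) * c by ring,
        show c ^ (l + 1 + (l + 1)) = c ^ (l + l) * c * c by ring]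
      nth_rewrite 3 [hc]
      ring⟩
  refine RealOmega.transfer h2 (H67.prod_nondegenerate hX hcZ) e he
    ⟨prodHom X _ (b, orthSmul _ hc0 u), inOmega_prodHom h2 hX hcZ hb ?_, ?_⟩
  · refine inOmega_of_odd_pow h2 hcZ ((hp.odd_of_ne_two hp2).pow) (k := p ^ (2 * l + 1)) ?_
    rw [← map_pow, hR, map_one]
  · rw [orderOf_prodHom, MulEquiv.orderOf_eq]
    exact Nat.lcm_dvd (Nat.dvd_lcm_left _ _) (hou.trans (Nat.dvd_lcm_right _ _))

end

include p in
/-- An element of `V ⋊ Ω` on eight dimensions gives one of `Ω` on nine. -/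
theorem realOmega_of_semi (h2 : (2 : F) ≠ 0) {Q : QuadraticForm F V} {Y : QuadraticForm F V'}
    (hQ : (polarBilin Q).Nondegenerate) (hY : (polarBilin Y).Nondegenerate) (hV : Even (finrank F V))
    (hdim : finrank F V + 1 = finrank F V') {g : H5.orth Q} (hg : InOmega Q g) (v : V) {N : ℕ}
    (hN : ∀ n, g ^ n = 1 → geomS (lin Q g) n v = 0 → N ∣ n) : RealOmega Y N := by
  have hp : p.Prime := Fact.out
  have hp2 : p ≠ 2 := fun h => h2 (by subst h; exact_mod_cast CharP.cast_eq_zero F 2)
  set n := orderOf g with hn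
  by_cases hv : geomS (lin Q g) n v = 0
  · refine RealOmega.mono ?_ (hN n (pow_orderOf_eq_one g) hv)
    simpa [hn] using realOmega_block p h2 hQ hY hg (l := 0) (by simpa using hdim) 0 (Or.inl rfl)
  obtain ⟨A, B, a, b, e, he, hgeq, hAn, hBn, hnil, hfix, -, hbo, hBev, hdimAB⟩ :=
    exists_parts p hp2 hQ hg
  have hgn : a ^ n = 1 ∧ b ^ n = 1 := by
    have h := pow_orderOf_eq_one g
    rw [← hn, hgeq, ← map_pow, EmbeddingLike.map_eq_one_iff, ← map_pow,
      ← map_one (prodHom (Q.comp A.subtype) (Q.comp B.subtype))] at h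
    exact Prod.mk_eq_one.1 (prodHom_injective _ _ h)
  have hgeo : ∀ x, geomS (lin Q g) n (e x) = e (geomS (lin _ a) n x.1, geomS (lin _ b) n x.2) := by
    intro x
    rw [← geomS_prodMap, ← lin_prodHom]
    simp only [geomS, LinearMap.sum_apply, map_sum]
    refine Finset.sum_congr rfl fun i _ => ?_
    rw [← map_pow, ← map_pow, lin_apply, lin_apply, hgeq, ← map_pow, orthCongr_apply,
      e.symm_apply_apply]
  obtain ⟨⟨xa, xb⟩, rfl⟩ := e.surjective v
  have hb0 : geomS (lin _ b) n xb = 0 := by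
    refine hfix _ ?_
    have h := LinearMap.congr_fun (mul_geom_sum (lin _ b) n) xb
    rw [← map_pow, hgn.2, map_one, sub_self, LinearMap.zero_apply, Module.End.mul_apply,
      LinearMap.sub_apply, Module.End.one_apply, sub_eq_zero, lin_apply] at h
    exact h
  rw [hgeo, hb0] at hv
  have ha : geomS (lin _ a) n xa ≠ 0 := fun h => hv (by rw [h, Prod.mk_zero_zero, map_zero])
  obtain ⟨dA, hdA⟩ : Even (finrank F A) := by
    have := hV
    rw [← hdimAB, Nat.even_add] at this
    exact this.2 hBev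
  have hnil' := sub_one_pow_eq_zero_of_even h2 (polarBilin (Q.comp A.subtype)) hAn
    (fun x y => QuadraticMap.polar_comm _ x y) (lin _ a) (fun x y => H5.orth_polar a x y) hnil
    (m := dA) (by omega)
  have hn0 : n ≠ 0 := (haveI : Finite (V ≃ₗ[F] V) := Finite.of_injective _ DFunLike.coe_injective
    (orderOf_pos g).ne')
  obtain ⟨k, m, hm, hkm⟩ := Nat.exists_eq_pow_mul_and_not_dvd hn0 p hp.ne_one
  have hak : a ^ p ^ k = 1 := by
    refine orderOf_dvd_iff_pow_eq_one.1 ?_
    have h1 : orderOf a ∣ p ^ k * m := hkm ▸ orderOf_dvd_of_pow_eq_one hgn.1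
    have h3 : orderOf a ∣ p ^ (2 * dA - 1) :=
      orderOf_dvd_of_pow_eq_one (pow_eq_one_of_nil p hnil' (Nat.lt_pow_self hp.one_lt).le)
    exact ((Nat.Coprime.pow_left _ (hp.coprime_iff_not_dvd.2 hm)).coprime_dvd_left h3).dvd_of_dvd_mul_right h1
  have hsmall : p ^ k < 2 * dA := by
    by_contra hlt
    push Not at hlt
    refine ha ?_
    rw [hkm, Nat.mul_comm (p ^ k) m, geomS_mul _ (by rw [← map_pow, hak, map_one]), geomS,
      geom_sum_eq_sub_one_pow (F := F) p, pow_eq_zero_of_le (by omega) hnil', smul_zero,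
      LinearMap.zero_apply]
  refine RealOmega.mono (realOmega_block p h2 hBn hY hbo (l := dA) (by omega) (k + 1)
    (Or.inr (by simpa using hsmall.le))) ?_
  have hN1 : N ∣ p * n := hN (p * n) (by rw [mul_comm, pow_mul, pow_orderOf_eq_one, one_pow]) (by
    rw [geomS_mul _ (by rw [← map_pow, pow_orderOf_eq_one, map_one]), CharP.cast_eq_zero, zero_smul,
      LinearMap.zero_apply])
  refine hN1.trans ?_
  have hmb : m ∣ orderOf b := by
    have h1 : n ∣ Nat.lcm (orderOf a) (orderOf b) := by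
      rw [hn, hgeq, MulEquiv.orderOf_eq, orderOf_prodHom]
    have h3 : m ∣ p ^ k * orderOf b :=
      ((Dvd.intro_left _ hkm.symm).trans h1).trans (Nat.lcm_dvd
        ((orderOf_dvd_of_pow_eq_one hak).trans (dvd_mul_right _ _)) (dvd_mul_left _ _))
    exact ((Nat.Coprime.pow_left _ (hp.coprime_iff_not_dvd.2 hm)).symm).dvd_of_dvd_mul_left h3
  rw [hkm, ← mul_assoc, ← pow_succ']
  exact Nat.Coprime.mul_dvd_of_dvd_of_dvd (Nat.Coprime.pow_left _ (hp.coprime_iff_not_dvd.2 hm))
    (Nat.dvd_lcm_right _ _) (hmb.trans (Nat.dvd_lcm_left _ _))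

include p in
/-- An element of `Ω` on nine dimensions, given the split case on eight. -/
theorem realSemi_of_omega_nine (h2 : (2 : F) ≠ 0) {Y : QuadraticForm F V'} {Q : QuadraticForm F V}
    (hY : (polarBilin Y).Nondegenerate) (hQ : (polarBilin Q).Nondegenerate)
    (hY9 : finrank F V' = 9) (hQ8 : finrank F V = 8) (hQs : ¬ H67.HasSing Q 4)
    (hplus : ∀ (B : Submodule F V') (b : H5.orth (Y.comp B.subtype)),
      (polarBilin (Y.comp B.subtype)).Nondegenerate → H67.HasSing (Y.comp B.subtype) 4 →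
      finrank F B = 8 → InOmega _ b → (∀ x, (b : B ≃ₗ[F] B) x = x → x = 0) →
      RealSemi Q (orderOf b))
    {g : H5.orth Y} (hg : InOmega Y g) : RealSemi Q (orderOf g) := by
  have hp : p.Prime := Fact.out
  have hp2 : p ≠ 2 := fun h => h2 (by subst h; exact_mod_cast CharP.cast_eq_zero F 2)
  obtain ⟨A, B, a, b, e, he, hgeq, hAn, hBn, hnil, hfix, -, hbo, hBev, hdimAB⟩ :=
    exists_parts p hp2 hY hg
  obtain ⟨dB, hdB⟩ := hBev
  have hA0 : (lin _ a - 1) ^ finrank F A = 0 := by
    obtain ⟨s, hs⟩ := hnil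
    refine LinearMap.ker_eq_top.1 (top_le_iff.1 ?_)
    rw [← LinearMap.ker_eq_top.2 hs]
    exact Module.End.ker_pow_le_ker_pow_finrank _ s
  have hord : ∀ r, finrank F A ≤ p ^ r → orderOf g ∣ Nat.lcm (orderOf b) (p ^ r) := fun r hr => by
    rw [hgeq, MulEquiv.orderOf_eq, orderOf_prodHom]
    exact Nat.lcm_dvd ((orderOf_dvd_of_pow_eq_one (pow_eq_one_of_nil p hA0 hr)).trans
      (Nat.dvd_lcm_right _ _)) (Nat.dvd_lcm_left _ _)
  rcases Nat.lt_or_ge 1 (finrank F A) with hd | hd
  · by_cases hdp : finrank F A ≤ p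
    · refine RealSemi.mono (realSemi_one p h2 hBn hQ hbo (by omega)) ?_
      simpa using hord 1 (by simpa using hdp)
    · refine RealSemi.mono (realSemi_two p h2 hBn hQ hbo ?_) (hord 2 ?_)
      · obtain ⟨c, hc⟩ := hp.odd_of_ne_two hp2
        omega
      · have hp3 : 3 ≤ p := by have := hp.two_le; omega
        have : 9 ≤ p ^ 2 := by nlinarith
        omega
  · have h8 : finrank F B = 8 := by omega
    have hb1 : orderOf g ∣ orderOf b := by simpa using hord 0 (by simpa using hd)
    refine RealSemi.mono ?_ hb1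
    by_cases hs : H67.HasSing (Y.comp B.subtype) 4
    · exact hplus B b hBn hs h8 hbo hfix
    · obtain ⟨f, hf⟩ := H67.isom_of_type hBn hQ (m := 4) h8 hQ8 (iff_of_false hs hQs)
      exact realSemi_zero h2 hBn hbo f hf

end Cfsg.Agent.H18.SpecNine
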