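import Cfsg.Agent.H18.SpecNine.Plus
import Cfsg.Agent.H5.OmegaSimple

/-!
`PΩ₉(q)` and `V ⋊ Ω₈⁻(q)` have the same element orders for odd `q`.
-/

set_option autoImplicit false
set_option linter.unusedSectionVars false

namespace Cfsg.Agent.H18.SpecNine

open QuadraticMap Module Cfsg.Agent

variable {F : Type*} [Field F] [Fintype F]

theorem two_dvd_pow_add_one {q d : ℕ} (hq : Odd q) : 2 ∣ q ^ d + 1 := by
  obtain ⟨c, hc⟩ := hq.pow (n := d)
  omega

/-- A non-split times a split torus, with spinor norm one. -/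
theorem tor_pair (h2 : (2 : F) ≠ 0) {d e : ℕ} (hd : 2 ≤ d) (he : 1 ≤ e)
    (hde : Fintype.card F ^ d % 4 = 3 → Fintype.card F ^ e % 4 = 3) :
    Tor F false (d + e) (Nat.lcm (Fintype.card F ^ d + 1) (Fintype.card F ^ e - 1)) 1 := by
  obtain ⟨σ, hx, hσ⟩ := tor_nonsplit (F := F) h2 hd
  have hy := tor_split (F := F) h2 he
  have hodd := odd_card (F := F) h2
  revert hde hx hσ hy hodd
  generalize Fintype.card F = q
  intro hde hx hσ hy hodd
  rcases Int.units_eq_one_or σ with rfl | rfl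
  · have h3 : q ^ d % 4 = 3 := by
      obtain ⟨c, hc⟩ := hodd.pow (n := d)
      rcases (show q ^ d % 4 = 1 ∨ q ^ d % 4 = 3 by omega) with h | h
      · exact absurd (hσ h) (by decide)
      · exact h
    have h4 := hde h3
    have hy2 := hy.pow (k := 2) two_ne_zero
    have hgcd : (q ^ e - 1).gcd 2 = 2 := Nat.gcd_eq_right (by omega)
    rw [hgcd, neg_one_sq] at hy2
    refine (hx.prod h2 hy2).cast ?_ (one_mul 1)
    have hcop : Nat.Coprime 2 ((q ^ e - 1) / 2) :=
      Nat.coprime_two_left.2 (Nat.odd_iff.2 (by omega))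
    refine Nat.dvd_antisymm (Nat.lcm_dvd (Nat.dvd_lcm_left _ _)
      ((Nat.div_dvd_of_dvd (by omega)).trans (Nat.dvd_lcm_right _ _)))
      (Nat.lcm_dvd (Nat.dvd_lcm_left _ _) ?_)
    conv_lhs => rw [← Nat.mul_div_cancel' (show 2 ∣ q ^ e - 1 by omega)]
    exact hcop.mul_dvd_of_dvd_of_dvd
      ((two_dvd_pow_add_one hodd).trans (Nat.dvd_lcm_left _ _))
      (Nat.dvd_lcm_right _ _)
  · exact (hx.prod h2 hy).cast rfl (Int.units_mul_self _)

theorem sq_mod_four {q : ℕ} (hq : Odd q) : q ^ 2 % 4 = 1 := by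
  obtain ⟨c, rfl⟩ := hq
  rw [show (2 * c + 1) ^ 2 = 4 * (c * c + c) + 1 by ring]
  omega

theorem cube_mod_four {q : ℕ} (hq : Odd q) : q ^ 3 % 4 = q % 4 := by
  rw [pow_succ, Nat.mul_mod, sq_mod_four hq]
  simp

variable {V : Type*} [AddCommGroup V] [Module F V] [Finite V] {Q : QuadraticForm F V}

/-- Every maximal value is realised. -/
theorem real_tops (p : ℕ) [Fact p.Prime] [CharP F p] (h2 : (2 : F) ≠ 0)
    (hQ : (polarBilin Q).Nondegenerate) (hV : finrank F V = 8) (hQs : ¬ H67.HasSing Q 4) :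
    ∀ z ∈ tops (min p 7), RealSemi Q (vval (Fintype.card F) p z) := by
  set q := Fintype.card F with hq
  have hp : p.Prime := Fact.out
  have hqo : Odd q := odd_card h2
  have hq3 : 3 ≤ q := by
    have : 1 < q := Fintype.one_lt_card
    obtain ⟨c, hc⟩ := hqo
    omega
  have sa : Tor F true 1 (q - 1) (-1) := by simpa using tor_split (F := F) h2 (d := 1) le_rfl
  have sd : Tor F true 2 (q ^ 2 - 1) (-1) := tor_split h2 (by norm_num)
  have sg : Tor F true 3 (q ^ 3 - 1) (-1) := tor_split h2 (by norm_num)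
  have nb : Tor F false 1 (q + 1) (-1) := tor_nonsplit_one h2
  obtain ⟨σ, nc', hσ⟩ := tor_nonsplit (F := F) h2 (d := 2) le_rfl
  obtain rfl := hσ (sq_mod_four hqo)
  have nc : Tor F false 2 (q ^ 2 + 1) (-1) := nc'
  have l1 : ∀ x : ℕ, Nat.lcm x 1 = x := Nat.lcm_one_right
  have mulp : ∀ {N : ℕ}, Nat.Coprime p N → Nat.lcm N p = p * N := fun h => by
    rw [h.symm.lcm_eq_mul, mul_comm]
  have mulp2 : ∀ {N : ℕ}, Nat.Coprime p N → Nat.lcm N (p ^ 2) = p ^ 2 * N := fun h => by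
    rw [(h.pow_left 2).symm.lcm_eq_mul, mul_comm]
  have hpq : p ∣ q := by
    obtain ⟨k, -, hk⟩ := FiniteField.card F p
    rw [hq, hk]
    exact dvd_pow_self p k.ne_zero
  have hp2 : p ≠ 2 := fun h => by
    obtain ⟨c, hc⟩ := hqo
    rw [h] at hpq
    omega
  have cp : ∀ {k : ℕ}, 1 ≤ k → Nat.Coprime p (q ^ k + 1) ∧ Nat.Coprime p (q ^ k - 1) := by
    intro k hk
    have hd : p ∣ q ^ k := hpq.trans (dvd_pow_self q (by omega))
    have h1 : 1 ≤ q ^ k := Nat.one_le_pow _ _ (by omega)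
    refine ⟨hp.coprime_iff_not_dvd.2 fun h => hp.ne_one ?_, hp.coprime_iff_not_dvd.2 fun h => hp.ne_one ?_⟩
    · simpa using Nat.dvd_sub h hd
    · have := Nat.dvd_sub hd h
      rw [show q ^ k - (q ^ k - 1) = 1 by omega] at this
      exact Nat.dvd_one.1 this
  have cpl : ∀ {a b : ℕ}, Nat.Coprime p a → Nat.Coprime p b → Nat.Coprime p (Nat.lcm a b) :=
    fun {a b} ha hb => (Nat.Coprime.mul_right ha hb).coprime_dvd_right (Nat.lcm_dvd_mul a b)
  have cp1 : Nat.Coprime p (q + 1) ∧ Nat.Coprime p (q - 1) := by simpa using cp (k := 1) le_rfl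
  intro z hz
  simp only [tops, List.mem_append, List.mem_cons, List.not_mem_nil, or_false] at hz
  rcases hz with (rfl | rfl | rfl | rfl | rfl | rfl | rfl) | hz
  · -- `lcm (q² + 1) (q² - 1)`
    have h := (nc.prod h2 sd).cast rfl (Int.units_mul_self _)
    simpa [vval, lc, atomVal, l1] using h.semi_zero h2 hQ hV hQs
  · have h := tor_pair (F := F) h2 (d := 3) (e := 1) (by norm_num) le_rfl (fun h => by
      rwa [pow_one, ← cube_mod_four hqo])
    simpa [vval, lc, atomVal, l1] using h.semi_zero h2 hQ hV hQs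
  · have h := (nb.prod h2 sg).cast rfl (Int.units_mul_self _)
    simpa [vval, lc, atomVal, l1, Nat.lcm_comm (q + 1)] using h.semi_zero h2 hQ hV hQs
  · have h := (nc.om_prod h2 sa).semi_one p h2 hQ (by omega)
    rw [mulp (cpl (cp (by norm_num)).1 cp1.2)] at h
    simpa [vval, lc, atomVal, l1] using h
  · have h := (nc.om_prod h2 nb).semi_one p h2 hQ (by omega)
    rw [mulp (cpl (cp (by norm_num)).1 cp1.1)] at h
    simpa [vval, lc, atomVal, l1] using h
  · have h := (sd.om_prod h2 sa).semi_one p h2 hQ (by omega)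
    have e : Nat.lcm (q ^ 2 - 1) (q - 1) = q ^ 2 - 1 :=
      Nat.lcm_eq_left (by simpa using Nat.sub_dvd_pow_sub_pow q 1 2)
    rw [e, mulp (cp (by norm_num)).2] at h
    simpa [vval, lc, atomVal, l1] using h
  · have hcop := cpl cp1.2 cp1.1
    by_cases hp5 : 4 ≤ min p 7
    · have h := (sa.om_prod h2 nb).semi_one p h2 hQ (by omega)
      rw [mulp hcop] at h
      simpa [vval, lg, hp5, lc, atomVal, l1] using h
    · have hp3 : p = 3 := by have := hp.two_le; omega
      have h := (sa.om_prod h2 nb).semi_two p h2 hQ (by omega)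
      rw [mulp2 hcop] at h
      simpa [vval, lg, hp5, lc, atomVal, l1] using h
  · by_cases h5 : min p 7 ≤ 5
    · rw [if_pos h5, List.mem_singleton] at hz
      subst hz
      have hp5 : p ≤ 5 := by omega
      have key : ∀ (M : ℕ) {s : Bool}, Tor F s 1 M (-1) → 4 ∣ M → M ≠ 0 → Om F 2 2 := by
        intro M s hM h4 hM0
        obtain ⟨m, rfl⟩ := h4
        have h := hM.pow (k := 2 * m) (by omega)
        rw [show (4 * m).gcd (2 * m) = 2 * m from Nat.gcd_eq_right ⟨2, by ring⟩,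
          show 4 * m / (2 * m) = 2 by
            rw [show 4 * m = 2 * (2 * m) by ring, Nat.mul_div_cancel _ (by omega)],
          show ((-1 : ℤˣ)) ^ (2 * m) = 1 by rw [pow_mul, neg_one_sq, one_pow]] at h
        exact h.om
      have hom : Om F 2 2 := by
        rcases (show q % 4 = 1 ∨ q % 4 = 3 by obtain ⟨c, hc⟩ := hqo; omega) with h | h
        · exact key _ sa (by omega) (by omega)
        · exact key _ nb (by omega) (by omega)
      have h := hom.semi_two p h2 hQ (by omega)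
      rw [mulp2 ((Nat.coprime_primes hp Nat.prime_two).2 hp2)] at h
      simpa [vval, lc, atomVal, l1] using h
    · rw [if_neg h5] at hz
      simp at hz

/-- The elements of `V ⋊ Ω` on eight dimensions reach those of `Ω` on nine. -/
theorem realSemi_of_orth (p : ℕ) [Fact p.Prime] [CharP F p] (h2 : (2 : F) ≠ 0) {V' : Type*}
    [AddCommGroup V'] [Module F V'] [Finite V'] {Y : QuadraticForm F V'}
    (hY : (polarBilin Y).Nondegenerate) (hY9 : finrank F V' = 9)
    (hQ : (polarBilin Q).Nondegenerate) (hV : finrank F V = 8) (hQs : ¬ H67.HasSing Q 4)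
    {g : H5.orth Y} (hg : InOmega Y g) : RealSemi Q (orderOf g) := by
  have hp : p.Prime := Fact.out
  have hp2 : p ≠ 2 := fun h => h2 (by subst h; exact_mod_cast CharP.cast_eq_zero F 2)
  refine realSemi_of_omega_nine p h2 hY hQ hY9 hV hQs (fun B b hBn hs hB8 hb hfix => ?_) hg
  have hP : min p 7 ∈ [3, 5, 7] := by
    have h1 : p ≠ 4 := fun h => by rw [h] at hp; norm_num at hp
    have h3 : p ≠ 6 := fun h => by rw [h] at hp; norm_num at hp
    have := hp.two_le
    simp only [List.mem_cons, List.not_mem_nil, or_false]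
    omega
  obtain ⟨z, hz, hzd⟩ := exists_tops p h2 hP (min_le_left _ _) hBn hB8 hfix
    ⟨fun f hfm hf hd => no_irreducible_eight h2 hBn hB8 hs b hfm hf hd,
      fun f hfm hf hd hne h4 => pair_four h2 hBn hB8 hb hfm hf hd hne h4⟩
  exact (real_tops p h2 hQ hV hQs z hz).mono hzd

section Bridge

open scoped Matrix

variable {a b : F}

/-- `Ω₉` has trivial centre. -/
theorem center_nine_eq_bot (h2 : (2 : F) ≠ 0) :
    Subgroup.center (commutator (H5.orth (H5.qOdd 4 F))) = ⊥ := by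
  have hQ := H5.qOdd_nondegenerate (F := F) 4 h2
  have hd : finrank F (Unit ⊕ (Fin 4 ⊕ Fin 4) → F) = 9 := by simp
  refine (Subgroup.eq_bot_iff_forall _).2 fun g hg => ?_
  obtain ⟨t, ht⟩ := (H5.mem_center_iff hQ (by omega) (Or.inr (by omega))).1 hg
  have hlin : lin (H5.qOdd 4 F) (g : H5.orth (H5.qOdd 4 F)) = t • 1 := LinearMap.ext ht
  have hd1 := ((mem_commutator_iff h2 hQ _).1 g.2).1
  rw [hlin, LinearMap.det_smul, hd, map_one, mul_one] at hd1
  have hQ1 : (H5.qOdd 4 F) (Pi.single (Sum.inl ()) 1) = 1 := by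
    simp [H5.coe_qOdd, Cfsg.quadFormOdd]
  have h3 := H5.orth_map (g : H5.orth (H5.qOdd 4 F)) (Pi.single (Sum.inl ()) 1)
  rw [ht, H4.qf_smul, hQ1, mul_one] at h3
  have ht1 : t = 1 := by
    have e : t ^ 9 = (t ^ 2) ^ 4 * t := by ring
    rw [hd1, h3, one_pow, one_mul] at e
    exact e.symm
  exact Subtype.ext (H5.orth_ext fun x => by rw [ht, ht1, one_smul]; rfl)

theorem range_orderOf_equiv {G G' : Type*} [Monoid G] [Monoid G'] (e : G ≃* G') :
    Set.range (orderOf : G → ℕ) = Set.range (orderOf : G' → ℕ) :=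
  Set.ext fun n => ⟨fun ⟨x, hx⟩ => ⟨e x, (e.orderOf_eq x).trans hx⟩,
    fun ⟨y, hy⟩ => ⟨e.symm y, (e.symm.orderOf_eq y).trans hy⟩⟩

theorem range_orderOf_pomega (h2 : (2 : F) ≠ 0) :
    Set.range (orderOf : Cfsg.POmega F (Cfsg.quadFormOdd 4 F) → ℕ) =
      Set.range (orderOf : commutator (H5.orth (H5.qOdd 4 F)) → ℕ) :=
  range_orderOf_equiv ((H5.pomegaEquiv (H5.qOdd 4 F) (H5.coe_qOdd 4)).trans
    ((QuotientGroup.quotientMulEquivOfEq (center_nine_eq_bot h2)).trans QuotientGroup.quotientBot))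

variable (a b) in
/-- The action on the natural module. -/
noncomputable abbrev act :
    Cfsg.Omega F (Cfsg.quadFormMinus 3 F a b) →*
      MulAut (Multiplicative (((Fin 3 ⊕ Fin 3) ⊕ Fin 2) → F)) :=
  (MulAutMultiplicative (((Fin 3 ⊕ Fin 3) ⊕ Fin 2) → F)).symm.toMonoidHom.comp
    ((DistribMulAction.toAddAut (LinearMap.GeneralLinearGroup F (((Fin 3 ⊕ Fin 3) ⊕ Fin 2) → F))
        (((Fin 3 ⊕ Fin 3) ⊕ Fin 2) → F)).comp
      (Matrix.GeneralLinearGroup.toLin.toMonoidHom.comp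
        ((Cfsg.isometryGroup F (Cfsg.quadFormMinus 3 F a b)).subtype.comp
          (Cfsg.Omega F (Cfsg.quadFormMinus 3 F a b)).subtype)))

theorem semi_pow_eq_one
    (x : Multiplicative (((Fin 3 ⊕ Fin 3) ⊕ Fin 2) → F) ⋊[act a b]
      Cfsg.Omega F (Cfsg.quadFormMinus 3 F a b)) (n : ℕ) :
    x ^ n = 1 ↔
      ((H5.omegaEquiv (H5.qMinus 3 F a b) (H5.coe_qMinus 3 a b) x.right : commutator _) :
        H5.orth (H5.qMinus 3 F a b)) ^ n = 1 ∧
      geomS (lin _ ((H5.omegaEquiv (H5.qMinus 3 F a b) (H5.coe_qMinus 3 a b) x.right : commutator _) :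
        H5.orth (H5.qMinus 3 F a b))) n x.left.toAdd = 0 := by
  set g := ((H5.omegaEquiv (H5.qMinus 3 F a b) (H5.coe_qMinus 3 a b) x.right : commutator _) :
        H5.orth (H5.qMinus 3 F a b)) with hg
  set T := lin _ g
  have hact : ∀ v, (act a b x.right (Multiplicative.ofAdd v)) = Multiplicative.ofAdd (T v) :=
    fun v => rfl
  have hpow : ∀ k : ℕ, x ^ k = ⟨Multiplicative.ofAdd (geomS T k x.left.toAdd), x.right ^ k⟩ := by
    intro k
    induction k with
    | zero => exact (pow_zero x).trans (SemidirectProduct.ext (by simp [geomS]) (by simp))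
    | succ k ih =>
      rw [pow_succ', ih]
      refine SemidirectProduct.ext ?_ (pow_succ' x.right k).symm
      rw [SemidirectProduct.mul_left, hact]
      apply Multiplicative.toAdd.injective
      simp only [geomS, toAdd_mul, toAdd_ofAdd, Finset.sum_range_succ', LinearMap.add_apply,
        LinearMap.sum_apply, map_sum, pow_zero, Module.End.one_apply, pow_succ', Module.End.mul_apply]
      abel
  rw [hpow]
  constructor
  · intro h
    have hr : x.right ^ n = 1 := congrArg SemidirectProduct.right h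
    refine ⟨?_, congrArg (fun y => (SemidirectProduct.left y).toAdd) h⟩
    rw [hg, ← SubmonoidClass.coe_pow, ← map_pow, hr, map_one, OneMemClass.coe_one]
  · rintro ⟨h1, h3⟩
    refine SemidirectProduct.ext (by rw [h3]; rfl) ?_
    refine (H5.omegaEquiv (H5.qMinus 3 F a b) (H5.coe_qMinus 3 a b)).injective ?_
    refine Subtype.ext ?_
    rw [map_pow, SubmonoidClass.coe_pow, ← hg, h1, SemidirectProduct.one_right, map_one, OneMemClass.coe_one]

/-- Isospectrality. -/
theorem spectrum_eq (hF : Odd (Fintype.card F))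
    (hab : ∀ z₁ z₂ : F, z₁ ^ 2 + a * z₁ * z₂ + b * z₂ ^ 2 = 0 → z₁ = 0 ∧ z₂ = 0) :
    Set.range (orderOf : Cfsg.POmega F (Cfsg.quadFormOdd 4 F) → ℕ) =
      Set.range (orderOf : Multiplicative (((Fin 3 ⊕ Fin 3) ⊕ Fin 2) → F) ⋊[act a b]
        Cfsg.Omega F (Cfsg.quadFormMinus 3 F a b) → ℕ) := by
  classical
  obtain ⟨p, hpc⟩ := CharP.exists F
  haveI : Fact p.Prime := ⟨CharP.char_is_prime F p⟩
  have h2 : (2 : F) ≠ 0 := fun h0 => by
    obtain ⟨k, -, hk⟩ := FiniteField.card F p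
    have hp2 : p = 2 := (Nat.prime_dvd_prime_iff_eq (Fact.out : p.Prime) Nat.prime_two).1
      ((CharP.cast_eq_zero_iff F p 2).1 (by exact_mod_cast h0))
    rw [hk, hp2] at hF
    exact Nat.not_odd_iff_even.2 (Nat.even_pow.2 ⟨even_two, k.ne_zero⟩) hF
  set Y := H5.qOdd 4 F
  set Q := H5.qMinus 3 F a b
  have hY : (polarBilin Y).Nondegenerate := H5.qOdd_nondegenerate 4 h2
  have hQeq : Q = H4.qMinus 3 F a b :=
    DFunLike.coe_injective ((H5.coe_qMinus 3 a b).trans (H4.coe_qMinus 3 a b).symm)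
  have hQ : (polarBilin Q).Nondegenerate := by
    rw [hQeq]
    exact H4.qMinus_nondegenerate
      (H4.disc_ne_zero_of_anisotropic hab fun c h => H4.exists_sq_eq h c) 3
  have hQs : ¬ H67.HasSing Q 4 := by rw [hQeq]; exact H67.not_hasSing_qMinus 3 hab
  have hd8 : finrank F ((Fin 3 ⊕ Fin 3) ⊕ Fin 2 → F) = 8 := by simp
  have hd9 : finrank F (Unit ⊕ (Fin 4 ⊕ Fin 4) → F) = 9 := by simp
  haveI : Finite ((Unit ⊕ (Fin 4 ⊕ Fin 4) → F) ≃ₗ[F] (Unit ⊕ (Fin 4 ⊕ Fin 4) → F)) :=
    Finite.of_injective _ DFunLike.coe_injective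
  rw [range_orderOf_pomega h2]
  refine Set.ext fun N => ⟨?_, ?_⟩
  · rintro ⟨y, rfl⟩
    obtain ⟨g, hg, v, hv⟩ :=
      realSemi_of_orth p h2 hY hd9 hQ hd8 hQs ((mem_commutator_iff h2 hY (y : H5.orth Y)).1 y.2)
    rw [Subgroup.orderOf_coe] at hv
    let x : Multiplicative (((Fin 3 ⊕ Fin 3) ⊕ Fin 2) → F) ⋊[act a b]
        Cfsg.Omega F (Cfsg.quadFormMinus 3 F a b) :=
      ⟨Multiplicative.ofAdd v, (H5.omegaEquiv Q (H5.coe_qMinus 3 a b)).symm
        ⟨g, (mem_commutator_iff h2 hQ g).2 hg⟩⟩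
    haveI : Finite (Multiplicative (((Fin 3 ⊕ Fin 3) ⊕ Fin 2) → F) ⋊[act a b]
        Cfsg.Omega F (Cfsg.quadFormMinus 3 F a b)) := Finite.of_equiv _ SemidirectProduct.equivProd.symm
    have h1 := (semi_pow_eq_one x (orderOf x)).1 (pow_orderOf_eq_one x)
    have hr : ((H5.omegaEquiv (H5.qMinus 3 F a b) (H5.coe_qMinus 3 a b) x.right : commutator _) :
        H5.orth (H5.qMinus 3 F a b)) = g := by
      show ((H5.omegaEquiv Q (H5.coe_qMinus 3 a b) ((H5.omegaEquiv Q (H5.coe_qMinus 3 a b)).symm _) :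
        commutator _) : H5.orth Q) = g
      rw [MulEquiv.apply_symm_apply]
    rw [hr] at h1
    have hdvd : orderOf y ∣ orderOf x := hv _ h1.1 h1.2
    exact ⟨x ^ (orderOf x / orderOf y),
      orderOf_pow_orderOf_div (orderOf_pos x).ne' hdvd⟩
  · rintro ⟨x, rfl⟩
    have hg : InOmega Q ((H5.omegaEquiv Q (H5.coe_qMinus 3 a b) x.right : commutator _) : H5.orth Q) :=
      (mem_commutator_iff h2 hQ _).1 (H5.omegaEquiv Q (H5.coe_qMinus 3 a b) x.right).2
    obtain ⟨g, hg', hN⟩ := realOmega_of_semi p h2 hQ hY (by rw [hd8]; decide) (by rw [hd8, hd9]) hg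
      x.left.toAdd (N := orderOf x) fun n h1 h3 =>
        orderOf_dvd_of_pow_eq_one ((semi_pow_eq_one x n).2 ⟨h1, h3⟩)
    let y : commutator (H5.orth Y) := ⟨g, (mem_commutator_iff h2 hY g).2 hg'⟩
    have hy : orderOf x ∣ orderOf y := by rw [← Subgroup.orderOf_coe]; exact hN
    exact ⟨y ^ (orderOf y / orderOf x), orderOf_pow_orderOf_div (orderOf_pos y).ne' hy⟩

end Bridge

end Cfsg.Agent.H18.SpecNine
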