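import Cfsg.Agent.H18.SpecNine.Lift
import Cfsg.Agent.H18.SpecEight.Tori
import Cfsg.Agent.H5.Levi

/-!
Tori in odd characteristic with their spinor norms.
-/

set_option autoImplicit false
set_option linter.unusedSectionVars false

namespace Cfsg.Agent.H18.SpecNine

open QuadraticMap Module Cfsg.Agent

variable {F : Type*} [Field F] [Fintype F]

section
variable {V V' : Type*} [AddCommGroup V] [Module F V] [AddCommGroup V'] [Module F V']
  [Finite V] [Finite V']

theorem orthCongr_refl {Q : QuadraticForm F V} {Q' : QuadraticForm F V'} (e : V ≃ₗ[F] V')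
    (he : ∀ v, Q' (e v) = Q v) (v : V) : orthCongr e he (H5.refl Q v) = H5.refl Q' (e v) := by
  refine H5.orth_ext fun x => ?_
  obtain ⟨y, rfl⟩ := e.surjective x
  rw [orthCongr_apply, e.symm_apply_apply, H5.refl_apply, H5.refl_apply, he]
  simp [QuadraticMap.polar, ← map_add, he]

theorem spin_orthCongr (h2 : (2 : F) ≠ 0) {Q : QuadraticForm F V} {Q' : QuadraticForm F V'}
    (hQ : (polarBilin Q).Nondegenerate) (e : V ≃ₗ[F] V')
    (he : ∀ v, Q' (e v) = Q v) (g : H5.orth Q) : H5.spin Q' (orthCongr e he g) = H5.spin Q g := by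
  refine H5.reflGroup_induction
    (p := fun k => H5.spin Q' (orthCongr e he k) = H5.spin Q k) ?_ ?_
    (show g ∈ H5.reflGroup Q by rw [reflGroup_top h2 hQ]; trivial)
  · rw [map_one, map_one, map_one]
  · intro v k hv _ ih
    rw [map_mul, map_mul, map_mul, ih, orthCongr_refl, H5.spin_refl hv, H5.spin_refl (by rwa [he]), he]

theorem det_orthCongr {Q : QuadraticForm F V} {Q' : QuadraticForm F V'} (e : V ≃ₗ[F] V')
    (he : ∀ v, Q' (e v) = Q v) (g : H5.orth Q) :
    LinearMap.det (lin Q' (orthCongr e he g)) = LinearMap.det (lin Q g) := by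
  rw [show lin Q' (orthCongr e he g) = e.toLinearMap ∘ₗ lin Q g ∘ₗ e.symm.toLinearMap from rfl,
    LinearMap.det_conj]

end

variable (F) in
/-- An isometry of given order, spinor norm and determinant one on a space of given type. -/
def Tor (s : Bool) (d N : ℕ) (σ : ℤˣ) : Prop :=
  ∃ (Q : QuadraticForm F (Fin (2 * d) → F)) (g : H5.orth Q), (polarBilin Q).Nondegenerate ∧
    (H67.HasSing Q d ↔ s = true) ∧ LinearMap.det (lin Q g) = 1 ∧ H5.spin Q g = σ ∧ orderOf g = N

variable (F) in
/-- An element of `Ω` of some space of given dimension. -/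
def Om (w N : ℕ) : Prop :=
  ∃ (Q : QuadraticForm F (Fin w → F)) (g : H5.orth Q), (polarBilin Q).Nondegenerate ∧ InOmega Q g ∧
    N ∣ orderOf g

section
variable {V : Type*} [AddCommGroup V] [Module F V] [Finite V]

theorem exists_coord {Q : QuadraticForm F V} (hQ : (polarBilin Q).Nondegenerate) {w : ℕ}
    (hV : finrank F V = w) : ∃ (Q' : QuadraticForm F (Fin w → F)) (e : V ≃ₗ[F] (Fin w → F)),
      (∀ v, Q' (e v) = Q v) ∧ (polarBilin Q').Nondegenerate := by
  let e : V ≃ₗ[F] (Fin w → F) := LinearEquiv.ofFinrankEq _ _ (by simpa using hV)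
  have he : ∀ v, Q.comp e.symm.toLinearMap (e v) = Q v := fun v => by simp
  exact ⟨_, e, he, H4.nondegenerate_of_isom e he hQ⟩

theorem Tor.intro (h2 : (2 : F) ≠ 0) {d N : ℕ} {s : Bool} {σ : ℤˣ} (Q : QuadraticForm F V)
    (g : H5.orth Q) (hV : finrank F V = 2 * d) (hQ : (polarBilin Q).Nondegenerate)
    (hs : H67.HasSing Q d ↔ s = true) (hd : LinearMap.det (lin Q g) = 1)
    (hσ : H5.spin Q g = σ) (hN : orderOf g = N) : Tor F s d N σ := by
  obtain ⟨Q', e, he, hQ'⟩ := exists_coord hQ hV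
  refine ⟨Q', orthCongr e he g, hQ', ?_, by rw [det_orthCongr, hd],
    by rw [spin_orthCongr h2 hQ, hσ], by rw [MulEquiv.orderOf_eq, hN]⟩
  rw [← hs]
  exact ⟨fun h => h.of_isom e.symm fun v => by rw [← he, e.apply_symm_apply],
    fun h => h.of_isom e he⟩

theorem Om.intro (h2 : (2 : F) ≠ 0) {w N : ℕ} {Q : QuadraticForm F V} {g : H5.orth Q}
    (hV : finrank F V = w) (hQ : (polarBilin Q).Nondegenerate) (hg : InOmega Q g)
    (hN : N ∣ orderOf g) : Om F w N := by
  obtain ⟨Q', e, he, hQ'⟩ := exists_coord hQ hV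
  exact ⟨Q', _, hQ', inOmega_congr h2 hQ e he hg, by rwa [MulEquiv.orderOf_eq]⟩

theorem Om.semi_one (p : ℕ) [Fact p.Prime] [CharP F p] (h2 : (2 : F) ≠ 0) {w N : ℕ} (h : Om F w N)
    {Q : QuadraticForm F V} (hQ : (polarBilin Q).Nondegenerate) (hdim : w < finrank F V) :
    RealSemi Q (Nat.lcm N p) := by
  obtain ⟨Q', g, hQ', hg, hN⟩ := h
  exact (realSemi_one p h2 hQ' hQ hg (by simpa using hdim)).mono
    (Nat.lcm_dvd (hN.trans (Nat.dvd_lcm_left _ _)) (Nat.dvd_lcm_right _ _))

theorem Om.semi_two (p : ℕ) [Fact p.Prime] [CharP F p] (h2 : (2 : F) ≠ 0) {w N : ℕ} (h : Om F w N)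
    {Q : QuadraticForm F V} (hQ : (polarBilin Q).Nondegenerate) (hdim : w + p < finrank F V) :
    RealSemi Q (Nat.lcm N (p ^ 2)) := by
  obtain ⟨Q', g, hQ', hg, hN⟩ := h
  exact (realSemi_two p h2 hQ' hQ hg (by simpa using hdim)).mono
    (Nat.lcm_dvd (hN.trans (Nat.dvd_lcm_left _ _)) (Nat.dvd_lcm_right _ _))

theorem Tor.semi_zero (h2 : (2 : F) ≠ 0) {d N : ℕ} (h : Tor F false d N 1) {Q : QuadraticForm F V}
    (hQ : (polarBilin Q).Nondegenerate) (hV : finrank F V = 2 * d) (hQs : ¬ H67.HasSing Q d) :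
    RealSemi Q N := by
  obtain ⟨Q', g, hQ', hs, hd, hσ, rfl⟩ := h
  obtain ⟨e, he⟩ := H67.isom_of_type hQ' hQ (m := d) (by simp) hV
    (iff_of_false (fun h => by simpa using hs.1 h) hQs)
  exact realSemi_zero h2 hQ' ⟨hd, hσ⟩ e he

end

theorem Tor.cast {s : Bool} {d N N' : ℕ} {σ σ' : ℤˣ} (h : Tor F s d N σ) (hN : N = N') (hσ : σ = σ') :
    Tor F s d N' σ' := hN ▸ hσ ▸ h

theorem Tor.pow {s : Bool} {d N : ℕ} {σ : ℤˣ} (h : Tor F s d N σ) {k : ℕ} (hk : k ≠ 0) :
    Tor F s d (N / N.gcd k) (σ ^ k) := by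
  obtain ⟨Q, g, hQ, hs, hd, hσ, rfl⟩ := h
  exact ⟨Q, g ^ k, hQ, hs, by rw [map_pow, map_pow, hd, one_pow], by rw [map_pow, hσ],
    orderOf_pow' g hk⟩

theorem Tor.om {s : Bool} {d N : ℕ} (h : Tor F s d N 1) : Om F (2 * d) N :=
  let ⟨Q, g, hQ, _, hd, hσ, hN⟩ := h
  ⟨Q, g, hQ, ⟨hd, hσ⟩, hN ▸ dvd_rfl⟩

/-- A sum with a split space keeps the type. -/
theorem Tor.prod (h2 : (2 : F) ≠ 0) {s : Bool} {d e N M : ℕ} {σ τ : ℤˣ} (h : Tor F s d N σ)
    (h' : Tor F true e M τ) : Tor F s (d + e) (Nat.lcm N M) (σ * τ) := by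
  obtain ⟨Q, g, hQ, hs, hd, hσ, rfl⟩ := h
  obtain ⟨Q', g', hQ', ht, hd', hτ, rfl⟩ := h'
  have hV : finrank F (Fin (2 * d) → F) = 2 * d := by simp
  have hV' : finrank F (Fin (2 * e) → F) = 2 * e := by simp
  refine Tor.intro h2 _ (prodHom Q Q' (g, g')) (by rw [finrank_prod, hV, hV']; ring)
    (H67.prod_nondegenerate hQ hQ') ?_ (by rw [det_prodHom, hd, hd', one_mul])
    (by rw [spin_prodHom h2 hQ hQ', hσ, hτ]) (orderOf_prodHom g g')
  cases s
  · exact iff_of_false (fun h => by
      simpa using hs.1 (H67.hasSing_of_prod hQ hQ' hV hV' (ht.2 rfl) h)) (by simp)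
  · exact iff_of_true (H67.hasSing_prod (hs.2 rfl) (ht.2 rfl)) rfl

theorem Tor.om_prod (h2 : (2 : F) ≠ 0) {s t : Bool} {d e N M : ℕ} {σ : ℤˣ} (h : Tor F s d N σ)
    (h' : Tor F t e M σ) : Om F (2 * d + 2 * e) (Nat.lcm N M) := by
  obtain ⟨Q, g, hQ, -, hd, hσ, rfl⟩ := h
  obtain ⟨Q', g', hQ', -, hd', hτ, rfl⟩ := h'
  exact Om.intro h2 (by simp) (H67.prod_nondegenerate hQ hQ') (g := prodHom Q Q' (g, g'))
    ⟨by rw [det_prodHom, hd, hd', one_mul],
      by rw [spin_prodHom h2 hQ hQ', hσ, hτ, Int.units_mul_self]⟩ (orderOf_prodHom g g' ▸ dvd_rfl)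

section Split

theorem ringChar_ne_two (h2 : (2 : F) ≠ 0) : ringChar F ≠ 2 := fun h => h2 (by
  haveI := ringChar.charP F
  haveI : CharP F 2 := h ▸ ringChar.charP F
  exact_mod_cast CharP.cast_eq_zero F 2)

theorem odd_card (h2 : (2 : F) ≠ 0) : Odd (Fintype.card F) :=
  Nat.odd_iff.2 (FiniteField.odd_card_of_char_ne_two (ringChar_ne_two h2))


theorem leviHom_injective (d : ℕ) : Function.Injective (H5.leviHom (F := F) (m := d)) := by
  intro A B h
  refine Units.ext (Matrix.ext fun i j => ?_)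
  have h1 := congrFun (LinearEquiv.congr_fun (congrArg Subtype.val h)
    (Sum.elim (Pi.single j 1) 0)) (Sum.inl i)
  simp only [H5.leviHom_apply, H5.leviLin_inl, Sum.elim_comp_inl, Matrix.mulVec_single_one,
    Matrix.col_apply] at h1
  exact h1

/-- The cyclic split torus has non-trivial spinor norm. -/
theorem tor_split (h2 : (2 : F) ≠ 0) {d : ℕ} (hd : 1 ≤ d) :
    Tor F true d (Fintype.card F ^ d - 1) (-1) := by
  classical
  obtain ⟨Z, hZ, hZg⟩ := H71.PSLBlocks.exists_singer (F := F) hd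
  have hq : 2 ≤ Fintype.card F := Fintype.one_lt_card
  have hodd := odd_card (F := F) h2
  have hQ := H5.qPlus_nondegenerate (F := F) d
  refine Tor.intro h2 (H5.qPlus d F) (H5.leviHom Z) (by simp; ring) hQ ?_ ?_ ?_
    (by rw [orderOf_injective _ (leviHom_injective d), hZ])
  · exact iff_of_true ((H67.hasSing_qPlus d).of_isom (LinearEquiv.refl F _) fun v => by
      rw [LinearEquiv.refl_apply, H4.coe_qPlus, H5.coe_qPlus]) rfl
  · have h := H5.det_eq_dick hQ (g := H5.leviHom Z) (by rw [reflGroup_top h2 hQ]; trivial)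
    rw [H5.dick_leviHom, Units.val_one, Int.cast_one] at h
    exact h
  · rw [H5.spin_leviHom, H5.sqc_eq_neg_one_iff]
    intro hsq
    have hdet : (Z : Matrix (Fin d) (Fin d) F).det ≠ 0 := Matrix.GeneralLinearGroup.det_ne_zero Z
    have h1 : (Z : Matrix (Fin d) (Fin d) F).det ^ (Fintype.card F / 2) = 1 :=
      (FiniteField.isSquare_iff (ringChar_ne_two h2) hdet).1 hsq
    have hpow : Z ^ (H71.PSLBlocks.geomQuot (Fintype.card F) d * (Fintype.card F / 2)) = 1 := by
      refine Units.ext ?_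
      rw [Units.val_pow_eq_pow_val, pow_mul, hZg, smul_pow, h1, one_pow, one_smul, Units.val_one]
    have hdvd := Nat.le_of_dvd (Nat.mul_pos ?_ (by omega)) (orderOf_dvd_of_pow_eq_one hpow)
    · have hmul := H71.PSLBlocks.geomQuot_mul (Fintype.card F) d
      rw [hZ, ← hmul] at hdvd
      have hpos : 0 < H71.PSLBlocks.geomQuot (Fintype.card F) d := by
        refine Nat.pos_of_ne_zero fun h0 => ?_
        rw [h0, zero_mul] at hmul
        have := Nat.one_lt_pow (by omega : d ≠ 0) hq
        omega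
      have := Nat.le_of_mul_le_mul_left hdvd hpos
      obtain ⟨c, hc⟩ := hodd
      omega
    · refine Nat.pos_of_ne_zero fun h0 => ?_
      have hmul := H71.PSLBlocks.geomQuot_mul (Fintype.card F) d
      rw [h0, zero_mul] at hmul
      have := Nat.one_lt_pow (by omega : d ≠ 0) hq
      omega

end Split

section Nonsplit

/-- Minus one on a space without maximal singular subspace. -/
theorem spin_negOne (h2 : (2 : F) ≠ 0) {V : Type*} [AddCommGroup V] [Module F V] [Finite V]
    {Q : QuadraticForm F V} (hQ : (polarBilin Q).Nondegenerate) {m : ℕ} (hV : finrank F V = 2 * m)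
    (hs : ¬ H67.HasSing Q m) (hm : IsSquare ((-1 : F) ^ m)) {e : H5.orth Q}
    (he : ∀ x, (e : V ≃ₗ[F] V) x = -x) : H5.spin Q e = -1 := by
  classical
  have hres : (LinearMap.BilinForm.restrict (polarBilin Q) (⊤ : Submodule F V)).Nondegenerate := by
    have h : ∀ x : (⊤ : Submodule F V),
        (∀ y : (⊤ : Submodule F V), polar Q (x : V) (y : V) = 0) → x = 0 := fun x hx =>
      Subtype.ext (H4.eq_zero_of_polar hQ fun y => hx ⟨y, trivial⟩)
    exact ⟨h, fun y hy => h y fun x => (polar_comm _ _ _).trans (hy x)⟩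
  obtain ⟨d, hd, hspin, hdisc⟩ := H66.OrthSpin.spin_involution h2 isCompl_top_bot
    (fun x _ z hz => by rw [(Submodule.mem_bot F).1 hz, polar_zero_right]) hres e
    (fun x _ => he x) (fun x hx => by rw [(Submodule.mem_bot F).1 hx, map_zero])
  rw [hspin, H5.sqc_eq_neg_one_iff]
  intro hsq
  apply hs
  let b := Module.finBasis F V
  refine (H4.singular_iff_isSquare h2 hQ hV b).2 (hm.mul ?_)
  rw [H66.OrthSplit.disc_eq_basis _ (b.map (LinearEquiv.ofTop (⊤ : Submodule F V) rfl).symm)] at hdisc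
  have hM : LinearMap.BilinForm.toMatrix (b.map (LinearEquiv.ofTop (⊤ : Submodule F V) rfl).symm)
      (LinearMap.BilinForm.restrict (polarBilin Q) ⊤) = H4.gram Q b := by
    ext i j
    simp [LinearMap.BilinForm.toMatrix_apply, H4.gram]
  rw [hM, finrank_top] at hdisc
  have h1 : IsSquare ((2 : F) ^ finrank F V * d) := by
    refine IsSquare.mul ⟨2 ^ m, by rw [hV, ← pow_add, two_mul]⟩ hsq
  rw [H5.sqc_eq_one_iff.2 h1] at hdisc
  exact (quadraticChar_one_iff_isSquare (H4.det_gram_ne_zero hQ b)).1 (by simpa using hdisc)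

/-- The cyclic non-split torus in dimension two. -/
theorem tor_nonsplit_one (h2 : (2 : F) ≠ 0) : Tor F false 1 (Fintype.card F + 1) (-1) := by
  classical
  obtain ⟨p, hpc⟩ := CharP.exists F
  haveI : Fact p.Prime := ⟨CharP.char_is_prime F p⟩
  let L := FiniteField.Extension F p 2
  haveI := Fintype.ofFinite L
  have hfr : finrank F L = 2 := FiniteField.finrank_extension F p 2
  let b : Basis (Fin 2) F L := Module.finBasisOfFinrankEq F L hfr
  let Q : QuadraticForm F L := SpecEight.normForm F L b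
  have hQapp : ∀ x, Q x = Algebra.norm F x := SpecEight.normForm_eq b
  have hQ : (polarBilin Q).Nondegenerate := SpecEight.normForm_nondegenerate b
  obtain ⟨β, hβo, hβn⟩ := SpecEight.exists_norm_one (K := F) (L := L) (by
    rw [Nat.card_eq_fintype_card, Module.card_eq_pow_finrank (K := F) (V := L), hfr])
  let x : H5.orth Q := ⟨{ LinearMap.mulLeft F (β : L) with
      invFun := fun x => ((β⁻¹ : Lˣ) : L) * x
      left_inv := fun x => by simp
      right_inv := fun x => by simp }, fun v => by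
      show Q ((β : L) * v) = Q v
      rw [hQapp, hQapp, map_mul, hβn, one_mul]⟩
  have hxpow : ∀ (n : ℕ) (v : L), ((x ^ n : H5.orth Q) : L ≃ₗ[F] L) v = ((β ^ n : Lˣ) : L) * v := by
    intro n
    induction n with
    | zero => simp
    | succ n ih =>
      intro v
      rw [pow_succ, H5.orth_mul_apply, ih, pow_succ, Units.val_mul, mul_assoc]
      rfl
  have hxo : orderOf x = Fintype.card F + 1 := by
    rw [← hβo]
    refine orderOf_eq_orderOf_iff.2 fun n => ⟨fun h => Units.ext ?_, fun h => H5.orth_ext fun v => ?_⟩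
    · have h1 := hxpow n 1
      rw [h, mul_one] at h1
      exact h1.symm
    · rw [hxpow, h, Units.val_one, one_mul]; rfl
  have hxd : LinearMap.det (lin Q x) = 1 := by
    rw [← hβn, Algebra.norm_apply]
    congr 1
  have hs : ¬ H67.HasSing Q 1 := by
    rintro ⟨W, hW, hW1⟩
    obtain ⟨w, hw, hw0⟩ := Submodule.exists_mem_ne_zero_of_ne_bot (p := W) fun h => by
      rw [h, finrank_bot] at hW1; omega
    exact hw0 (Algebra.norm_eq_zero_iff.1 ((hQapp w).symm.trans (hW w hw)))
  refine Tor.intro h2 Q x hfr hQ (iff_of_false hs (by simp)) hxd ?_ hxo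
  obtain ⟨α, hα⟩ := H5.exists_not_isSquare h2
  obtain ⟨v₂, hv₂⟩ := FiniteField.norm_surjective F L α
  have hα0 : α ≠ 0 := fun h => hα (h ▸ IsSquare.zero)
  have hq1 : Q 1 ≠ 0 := by rw [hQapp, map_one]; exact one_ne_zero
  have hq2 : Q v₂ ≠ 0 := by rw [hQapp, hv₂]; exact hα0
  set r := H5.refl Q 1 * H5.refl Q v₂ with hr
  have hrs : H5.spin Q r = -1 := by
    rw [hr, map_mul, H5.spin_refl hq1, H5.spin_refl hq2, hQapp, hQapp, map_one, hv₂, H5.sqc_one,
      one_mul, H5.sqc_eq_neg_one_iff]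
    exact hα
  set w := (r : L ≃ₗ[F] L) 1 with hwdef
  have hw : Algebra.norm F w = 1 := by rw [← hQapp, H5.orth_map, hQapp, map_one]
  have hwpow : w ^ (Fintype.card F + 1) = 1 := by
    have h := FiniteField.algebraMap_norm_eq_pow_sum F L w
    rw [hw, map_one, hfr, Nat.card_eq_fintype_card, Finset.sum_range_succ, Finset.sum_range_succ,
      Finset.sum_range_zero, zero_add, pow_zero, pow_one, add_comm] at h
    exact h.symm
  have hprim : IsPrimitiveRoot (β : L) (Fintype.card F + 1) :=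
    IsPrimitiveRoot.coe_units_iff.2 (hβo ▸ IsPrimitiveRoot.orderOf β)
  haveI : NeZero (Fintype.card F + 1) := ⟨by omega⟩
  obtain ⟨i, -, hi⟩ := hprim.eq_pow_of_pow_eq_one hwpow
  -- `x ^ i` and `r` agree at one
  set h := (x ^ i)⁻¹ * r with hh
  have hh1 : (h : L ≃ₗ[F] L) 1 = 1 := by
    rw [hh, H5.orth_mul_apply, ← hwdef]
    have : ((x ^ i : H5.orth Q) : L ≃ₗ[F] L) 1 = w := by
      rw [hxpow, mul_one, Units.val_pow_eq_pow_val, hi]
    rw [← this, H5.orth_inv_apply_apply]
  have hrd : LinearMap.det (lin Q r) = 1 := by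
    have e : ∀ v, Q v ≠ 0 → LinearMap.det (lin Q (H5.refl Q v)) = -1 := fun v hv => by
      show LinearMap.det ((H5.refl Q v : L ≃ₗ[F] L) : L →ₗ[F] L) = -1
      rw [← LinearEquiv.coe_det, H5.det_refl hv]; simp
    rw [hr, map_mul, map_mul, e _ hq1, e _ hq2]; ring
  have hhd : H5.dick h = 1 := by
    have h1 := H5.det_eq_dick hQ (g := h) (by rw [reflGroup_top h2 hQ]; trivial)
    change LinearMap.det (lin Q h) = _ at h1
    have h3 : LinearMap.det (lin Q h) = 1 := by
      have h4 : LinearMap.det (lin Q (x ^ i)) * LinearMap.det (lin Q h) = LinearMap.det (lin Q r) := by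
        rw [← map_mul, ← map_mul, hh, mul_inv_cancel_left]
      rwa [map_pow, map_pow, hxd, one_pow, one_mul, hrd] at h4
    rcases Int.units_eq_one_or (H5.dick h) with h' | h'
    · exact h'
    · rw [h3, h'] at h1
      simp at h1
      exact absurd (show (2 : F) = 0 by linear_combination h1) h2
  have hh0 : h = 1 := by
    refine H5.eq_one_of_rk_eq_zero ?_
    have hsum := H5.rk_add_finrank_fixer h
    rw [hfr] at hsum
    have hfix : 1 ≤ finrank F (H5.fixer h) := by
      refine Nat.one_le_iff_ne_zero.2 fun h0 => ?_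
      have h1 : (1 : L) ∈ H5.fixer h := H5.mem_fixer.2 hh1
      rw [Submodule.finrank_eq_zero.1 h0, Submodule.mem_bot] at h1
      exact one_ne_zero h1
    rw [H5.dick] at hhd
    rcases (show H5.rk h = 0 ∨ H5.rk h = 1 by omega) with h' | h'
    · exact h'
    · rw [h', pow_one] at hhd
      exact absurd hhd (by decide)
  rw [hh, inv_mul_eq_one] at hh0
  rw [← hh0, map_pow] at hrs
  rcases Int.units_eq_one_or (H5.spin Q x) with h' | h'
  · rw [h', one_pow] at hrs
    exact absurd hrs (by decide)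
  · exact h'

/-- The cyclic non-split torus. -/
theorem tor_nonsplit (h2 : (2 : F) ≠ 0) {d : ℕ} (hd : 2 ≤ d) :
    ∃ σ, Tor F false d (Fintype.card F ^ d + 1) σ ∧ (Fintype.card F ^ d % 4 = 1 → σ = -1) := by
  classical
  obtain ⟨p, hpc⟩ := CharP.exists F
  haveI : Fact p.Prime := ⟨CharP.char_is_prime F p⟩
  have : NeZero d := ⟨by omega⟩
  let K := FiniteField.Extension F p d
  have := Fintype.ofFinite K
  have hfr : finrank F K = d := FiniteField.finrank_extension F p d
  have hcard : Fintype.card K = Fintype.card F ^ d := by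
    rw [Module.card_eq_pow_finrank (K := F), hfr]
  have : CharP K p := charP_of_injective_algebraMap (algebraMap F K).injective p
  let L := FiniteField.Extension K p 2
  have := Fintype.ofFinite L
  have hfr2 : finrank K L = 2 := FiniteField.finrank_extension K p 2
  let _alg : Algebra F L := ((algebraMap K L).comp (algebraMap F K)).toAlgebra
  haveI : IsScalarTower F K L := IsScalarTower.of_algebraMap_eq fun x => rfl
  obtain ⟨β, hβo, hβn⟩ := SpecEight.exists_norm_one (K := K) (L := L) (by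
    rw [Nat.card_eq_fintype_card, Module.card_eq_pow_finrank (K := K) (V := L), hfr2])
  let b : Basis (Fin 2) K L := Module.finBasisOfFinrankEq K L hfr2
  let T : K →ₗ[F] F := Algebra.trace F K
  let Q : QuadraticForm F L := T.compQuadraticMap' (SpecEight.normForm K L b)
  have hQapp : ∀ x, Q x = T (Algebra.norm K x) := fun x => by
    show T (SpecEight.normForm K L b x) = _
    rw [SpecEight.normForm_eq]
  have hQpol : ∀ x y, polar Q x y = T (polar (SpecEight.normForm K L b) x y) := fun x y => by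
    simp only [polar, hQapp, SpecEight.normForm_eq, map_sub]
  have hQ : (polarBilin Q).Nondegenerate := by
    have h : ∀ x, (∀ y, polar Q x y = 0) → x = 0 := fun x hx =>
      H4.eq_zero_of_polar (SpecEight.normForm_nondegenerate b) fun y => by
        refine (traceForm_nondegenerate F K).1 _ fun c => ?_
        rw [Algebra.traceForm_apply, mul_comm]
        have h1 := hx (c • y)
        rwa [hQpol, polar_smul_right, smul_eq_mul] at h1
    exact ⟨h, fun y hy => h y fun x => (polar_comm _ _ _).trans (hy x)⟩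
  haveI : Module.Finite F L := Module.Finite.of_finite
  have hV : finrank F L = 2 * d := by
    rw [← Module.finrank_mul_finrank F K L, hfr, hfr2, mul_comm]
  let x : H5.orth Q := ⟨{ LinearMap.mulLeft F (β : L) with
      invFun := fun x => ((β⁻¹ : Lˣ) : L) * x
      left_inv := fun x => by simp
      right_inv := fun x => by simp }, fun v => by
      show Q ((β : L) * v) = Q v
      rw [hQapp, hQapp, map_mul, hβn, one_mul]⟩
  have hxpow : ∀ (n : ℕ) (v : L), ((x ^ n : H5.orth Q) : L ≃ₗ[F] L) v = ((β ^ n : Lˣ) : L) * v := by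
    intro n
    induction n with
    | zero => simp
    | succ n ih =>
      intro v
      rw [pow_succ, H5.orth_mul_apply, ih, pow_succ, Units.val_mul, mul_assoc]
      rfl
  have hxo : orderOf x = Fintype.card F ^ d + 1 := by
    rw [← hcard, ← hβo]
    refine orderOf_eq_orderOf_iff.2 fun n => ⟨fun h => Units.ext ?_, fun h => H5.orth_ext fun v => ?_⟩
    · have h1 := hxpow n 1
      rw [h, mul_one] at h1
      exact h1.symm
    · rw [hxpow, h, Units.val_one, one_mul]; rfl
  have hxd : LinearMap.det (lin Q x) = 1 := by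
    have h1 : Algebra.norm F (β : L) = 1 := by rw [← Algebra.norm_norm (S := K), hβn, map_one]
    rw [← h1, Algebra.norm_apply]
    congr 1
  set q := Fintype.card F with hq
  have hq3 : 3 ≤ q := by
    obtain ⟨c, hc⟩ := odd_card (F := F) h2
    have : 1 < q := Fintype.one_lt_card
    omega
  have hs : ¬ H67.HasSing Q d := by
    rintro ⟨W, hW, hWd⟩
    obtain ⟨e, he⟩ := H4.isom_qPlus_of_singular hQ hV W hW hWd
    let E : {x : L // Q x = 0} ≃ {v : Fin d ⊕ Fin d → F // Cfsg.quadFormPlus d F v = 0} :=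
      e.toEquiv.subtypeEquiv fun x => by
        rw [← H4.coe_qPlus]
        show _ ↔ H4.qPlus d F (e x) = 0
        rw [he]
    have hcz := H4.card_qPlus_zeros (F := F) d
    rw [← Nat.card_congr E] at hcz
    set S : Set Lˣ := {u | Q (u : L) = 0}
    have hdvd : orderOf β ∣ Nat.card S := SpecEight.orderOf_dvd_natCard β S fun u => by
      show Q ((u * β : Lˣ) : L) = 0 ↔ Q (u : L) = 0
      rw [hQapp, hQapp, Units.val_mul, map_mul, hβn, mul_one]
    rw [hβo, hcard] at hdvd
    let E2 : {x : L // Q x = 0} ≃ Option S :=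
      { toFun := fun x => if h : (x : L) = 0 then none else some ⟨Units.mk0 _ h, x.2⟩
        invFun := fun o => o.elim ⟨0, map_zero Q⟩ fun u => ⟨((u : Lˣ) : L), u.2⟩
        left_inv := fun x => by
          by_cases h : (x : L) = 0
          · simp only [h, dif_pos]; exact Subtype.ext h.symm
          · simp only [h, dif_neg, not_false_eq_true]; rfl
        right_inv := fun o => by
          rcases o with _ | u
          · simp
          · simp }
    rw [Nat.card_congr E2, Finite.card_option] at hcz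
    obtain ⟨d', rfl⟩ : ∃ d', d = d' + 1 := ⟨d - 1, by omega⟩
    obtain ⟨k, hk⟩ := hdvd
    rw [hk] at hcz
    push_cast at hcz
    set a : ℤ := (q : ℤ) ^ d' with ha
    have hqz : (3 : ℤ) ≤ q := by exact_mod_cast hq3
    have ha3 : 3 ≤ a := le_trans hqz (by
      rw [ha]; simpa using pow_le_pow_right₀ (show (1 : ℤ) ≤ q by omega) (show 1 ≤ d' by omega))
    have e1 : ((q : ℤ) * a + 1) * k = ((q : ℤ) * a - 1) * (a + 1) := by
      refine mul_left_cancel₀ (show (q : ℤ) ≠ 0 by omega) ?_
      rw [ha]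
      linear_combination hcz
    -- `q a + 1` would divide `2 (a + 1)`
    have h2' : ((q : ℤ) * a + 1) * ((a + 1) - k) = 2 * (a + 1) := by linear_combination -e1
    rcases le_or_gt ((a + 1) - (k : ℤ)) 0 with h | h
    · have hp : (0 : ℤ) < (q : ℤ) * a + 1 := by positivity
      nlinarith [mul_nonpos_of_nonneg_of_nonpos hp.le h]
    · have hp : (0 : ℤ) < (q : ℤ) * a + 1 := by positivity
      nlinarith [mul_le_mul_of_nonneg_left (Int.add_one_le_of_lt h) hp.le,
        mul_le_mul_of_nonneg_right hqz (show (0 : ℤ) ≤ a by omega)]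
  refine ⟨H5.spin Q x, Tor.intro h2 Q x hV hQ (iff_of_false hs (by simp)) hxd rfl hxo, fun h4 => ?_⟩
  obtain ⟨k, hk⟩ : ∃ k, q ^ d + 1 = 2 * k := ⟨(q ^ d + 1) / 2, by omega⟩
  have hkodd : Odd k := Nat.odd_iff.2 (by omega)
  have hβk : ((β ^ k : Lˣ) : L) = -1 := by
    have hne : β ^ k ≠ 1 := pow_ne_one_of_lt_orderOf (by omega) (by rw [hβo, hcard]; omega)
    have h1 : ((β ^ k : Lˣ) : L) ^ 2 = 1 := by
      rw [← Units.val_pow_eq_pow_val, ← pow_mul, mul_comm, ← hk, ← hcard, ← hβo, pow_orderOf_eq_one,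
        Units.val_one]
    rcases sq_eq_one_iff.mp h1 with h | h
    · exact absurd (Units.ext h) hne
    · exact h
  have hm : IsSquare ((-1 : F) ^ d) := by
    rcases Nat.even_or_odd d with ⟨c, hc⟩ | hdo
    · exact ⟨(-1) ^ c, by rw [hc, pow_add]⟩
    · rw [hdo.neg_one_pow]
      refine FiniteField.isSquare_neg_one_iff.2 ?_
      rw [← hq]
      intro hq4
      rw [Nat.pow_mod, hq4] at h4
      obtain ⟨c, rfl⟩ := hdo
      simp [pow_succ, pow_mul, Nat.mul_mod, Nat.pow_mod] at h4
  have h1 := spin_negOne h2 hQ hV hs hm (e := x ^ k) fun v => by rw [hxpow, hβk, neg_one_mul]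
  rw [map_pow] at h1
  rcases Int.units_eq_one_or (H5.spin Q x) with h' | h'
  · rw [h', one_pow] at h1
    exact absurd h1 (by decide)
  · exact h'

end Nonsplit

end Cfsg.Agent.H18.SpecNine
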