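import Cfsg.Agent.H18.SpecNine.Bound
import Cfsg.Agent.H18.SpecNine.Tori

/-!
What is excluded in a plus space: an irreducible isometry, and a dual pair with non-square norm.
-/

set_option autoImplicit false
set_option linter.unusedSectionVars false

namespace Cfsg.Agent.H18.SpecNine

open QuadraticMap Module Cfsg.Agent Polynomial

variable {F : Type*} [Field F] [Fintype F]
variable {V : Type*} [AddCommGroup V] [Module F V] [Finite V] {Q : QuadraticForm F V}

theorem polar_aeval (g : H5.orth Q) {n : ℕ} (P : F[X]) (hP : P.natDegree ≤ n) (x y : V) :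
    polar Q (aeval (lin Q g) P x) ((lin Q g ^ n) y) =
      polar Q x (aeval (lin Q g) (P.reflect n) y) := by
  set T := lin Q g
  have hiso : ∀ (i : ℕ) (u v : V), polar Q ((T ^ i) u) ((T ^ i) v) = polar Q u v := fun i u v => by
    rw [← map_pow]
    exact H5.orth_polar (g ^ i) u v
  have hR : (P.reflect n).natDegree < n + 1 := by
    have := Polynomial.natDegree_reflect_le (p := P) (N := n)
    omega
  rw [aeval_eq_sum_range' (show P.natDegree < n + 1 by omega),
    aeval_eq_sum_range' hR, LinearMap.sum_apply, LinearMap.sum_apply,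
    ← polarBilin_apply_apply, ← polarBilin_apply_apply, map_sum, map_sum,
    LinearMap.sum_apply, ← Finset.sum_range_reflect]
  refine Finset.sum_congr rfl fun i hi => ?_
  have hi' : i ≤ n := Nat.lt_succ_iff.1 (Finset.mem_range.1 hi)
  rw [LinearMap.smul_apply, LinearMap.smul_apply, map_smul, map_smul, LinearMap.smul_apply,
    polarBilin_apply_apply, polarBilin_apply_apply, coeff_reflect, revAt_le hi']
  simp only [Nat.add_sub_cancel]
  congr 1
  conv_lhs => rw [show n = (n - i) + i by omega, pow_add, Module.End.mul_apply,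
    show (n - i + i - i) = n - i by omega, hiso]

theorem mul_eq_charpoly {T : Module.End F V} {f f' : F[X]} (hfm : f.Monic) (hfm' : f'.Monic)
    (hc : IsCoprime f f') (h1 : f ∣ T.charpoly) (h1' : f' ∣ T.charpoly)
    (hd : f.natDegree + f'.natDegree = finrank F V) : T.charpoly = f * f' := by
  refine eq_of_monic_of_dvd_of_natDegree_le (hfm.mul hfm') T.charpoly_monic (hc.mul_dvd h1 h1') ?_
  rw [T.charpoly_natDegree, hfm.natDegree_mul hfm', hd]

/-- An irreducible characteristic polynomial of degree eight does not occur on a plus space. -/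
theorem no_irreducible_eight (h2 : (2 : F) ≠ 0) (hQ : (polarBilin Q).Nondegenerate)
    (hV : finrank F V = 8) (hs : H67.HasSing Q 4) (g : H5.orth Q) {f : F[X]} (hfm : f.Monic)
    (hf : Irreducible f) (hdvd : f ∣ (lin Q g).charpoly) : f.natDegree ≠ 8 := by
  classical
  intro hd
  haveI : Fact (Irreducible f) := ⟨hf⟩
  set T := lin Q g with hT
  have hχ : T.charpoly = f := eq_of_monic_of_dvd_of_natDegree_le hfm T.charpoly_monic hdvd
    (by rw [T.charpoly_natDegree, hV, hd])
  let c := Module.finBasis F V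
  have hMG : (LinearMap.toMatrix c c T).transpose * LinearMap.BilinForm.toMatrix c (polarBilin Q) *
      LinearMap.toMatrix c c T = LinearMap.BilinForm.toMatrix c (polarBilin Q) := by
    rw [← LinearMap.BilinForm.toMatrix_comp (c := c)]
    congr 1
    exact LinearMap.ext fun x => LinearMap.ext fun y => H5.orth_polar g x y
  obtain ⟨hf0, hself⟩ : f.coeff 0 ≠ 0 ∧ H67.dualPoly (RingHom.id F) f = f := by
    have h := H59.OrthOrder.charpoly_dual _ _
      (isUnit_iff_ne_zero.2 ((LinearMap.BilinForm.nondegenerate_iff_det_ne_zero c).1 hQ)) hMG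
    rwa [LinearMap.charpoly_toMatrix, hχ] at h
  rcases H71.SympBlocks.root_pow_of_self_dual hfm hf0 hself with ⟨h1, -⟩ | ⟨D, -, hD, hroot⟩
  · omega
  obtain rfl : D = 4 := by omega
  set q := Fintype.card F with hq
  have hker : ∀ (n : ℕ) (x : V), x ≠ 0 → (T ^ n) x = x → f ∣ X ^ n - 1 := by
    intro n x hx hTx
    by_contra hnd
    obtain ⟨u, v, huv⟩ := (hf.coprime_iff_not_dvd).2 hnd
    have h := congrArg (fun P : F[X] => aeval T P x) huv
    simp only [map_add, map_mul, map_one, map_sub, map_pow, aeval_X, LinearMap.add_apply,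
      Module.End.mul_apply, Module.End.one_apply, LinearMap.sub_apply, hTx, sub_self, map_zero,
      add_zero] at h
    rw [← hχ, LinearMap.aeval_self_charpoly, LinearMap.zero_apply, map_zero] at h
    exact hx h.symm
  have hpow : ∀ n, f ∣ X ^ n - 1 → g ^ n = 1 := by
    intro n ⟨u, hu⟩
    refine lin_injective Q ?_
    have h := congrArg (aeval T) hu
    rw [map_mul, ← hχ, LinearMap.aeval_self_charpoly, zero_mul, map_sub, map_pow, aeval_X, map_one,
      sub_eq_zero] at h
    rw [map_pow, map_one]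
    exact h
  have hfix : ∀ (n : ℕ) (x : V), x ≠ 0 → ((g ^ n : H5.orth Q) : V ≃ₗ[F] V) x = x → g ^ n = 1 :=
    fun n x hx h => hpow n (hker n x hx (by rw [hT, ← map_pow]; exact h))
  have hk1 : orderOf g ∣ q ^ 4 + 1 := by
    refine orderOf_dvd_of_pow_eq_one (hpow _ ?_)
    rw [← AdjoinRoot.mk_eq_zero, map_sub, map_pow, AdjoinRoot.mk_X, hroot, map_one, sub_self]
  -- free action on the non-zero singular vectors
  obtain ⟨W, hW, hW4⟩ := hs
  obtain ⟨e, he⟩ := H4.isom_qPlus_of_singular hQ (m := 4) hV W hW hW4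
  let S := {x : V // Q x = 0 ∧ x ≠ 0}
  letI : MulAction (Subgroup.zpowers g) S :=
    { smul := fun u x => ⟨(((u : H5.orth Q) : V ≃ₗ[F] V)) x.1, by rw [H5.orth_map]; exact x.2.1,
        fun h => x.2.2 ((LinearEquiv.map_eq_zero_iff _).1 h)⟩
      one_smul := fun x => Subtype.ext rfl
      mul_smul := fun u v x => Subtype.ext rfl }
  haveI : Finite (V ≃ₗ[F] V) := Finite.of_injective _ DFunLike.coe_injective
  have hstab : ∀ x : S, MulAction.stabilizer (Subgroup.zpowers g) x = ⊥ := by
    intro x
    refine (Subgroup.eq_bot_iff_forall _).2 fun u hu => Subtype.ext ?_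
    obtain ⟨n, hn⟩ := (mem_powers_iff_mem_zpowers).2 u.2
    have h1 : ((u : H5.orth Q) : V ≃ₗ[F] V) x.1 = x.1 := congrArg Subtype.val (MulAction.mem_stabilizer_iff.1 hu)
    have hn' : g ^ n = (u : H5.orth Q) := hn
    rw [Subgroup.coe_one, ← hn']
    exact hfix n x.1 x.2.2 (hn' ▸ h1)
  have hk2 : orderOf g ∣ Nat.card S := by
    letI : Fintype (MulAction.orbitRel.Quotient (Subgroup.zpowers g) S) := Fintype.ofFinite _
    rw [Nat.card_congr (MulAction.selfEquivSigmaOrbitsQuotientStabilizer (Subgroup.zpowers g) S),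
      Nat.card_sigma]
    refine Finset.dvd_sum fun ω _ => ?_
    rw [hstab, ← Subgroup.index, Subgroup.index_bot, Nat.card_zpowers]
  have hS : Nat.card S = (q ^ 4 - 1) * (q ^ 3 + 1) := by
    have hcz := H4.card_qPlus_zeros (F := F) 4
    have E : {x : V // Q x = 0} ≃ {v : Fin 4 ⊕ Fin 4 → F // Cfsg.quadFormPlus 4 F v = 0} :=
      e.toEquiv.subtypeEquiv fun x => by
        rw [← H4.coe_qPlus]
        show _ ↔ H4.qPlus 4 F (e x) = 0
        rw [he]
    let E2 : {x : V // Q x = 0} ≃ Option S :=
      { toFun := fun x => if h : (x : V) = 0 then none else some ⟨x, x.2, h⟩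
        invFun := fun o => o.elim ⟨0, map_zero Q⟩ fun u => ⟨u.1, u.2.1⟩
        left_inv := fun x => by
          by_cases h : (x : V) = 0
          · simp only [h, dif_pos]; exact Subtype.ext h.symm
          · simp only [h, dif_neg, not_false_eq_true]; rfl
        right_inv := fun o => by
          rcases o with _ | u
          · simp
          · simp [u.2.2] }
    rw [← Nat.card_congr E, Nat.card_congr E2, Finite.card_option, ← hq] at hcz
    push_cast at hcz
    have hq0 : (q : ℤ) ≠ 0 := by exact_mod_cast (Fintype.card_pos (α := F)).ne'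
    have h1 : (Nat.card S : ℤ) = ((q : ℤ) ^ 4 - 1) * ((q : ℤ) ^ 3 + 1) := by
      refine mul_left_cancel₀ hq0 ?_
      linear_combination hcz
    have h4 : 1 ≤ q ^ 4 := Nat.one_le_pow _ _ Fintype.card_pos
    have h5 : ((q ^ 4 - 1 : ℕ) : ℤ) = (q : ℤ) ^ 4 - 1 := by push_cast [Nat.cast_sub h4]; ring
    have h6 : (Nat.card S : ℤ) = (((q ^ 4 - 1) * (q ^ 3 + 1) : ℕ) : ℤ) := by
      rw [h1, Nat.cast_mul, h5]; push_cast; ring
    exact_mod_cast h6
  rw [hS] at hk2
  -- so the order divides two
  have hk : orderOf g ∣ 2 := by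
    have hqo : Odd q := odd_card h2
    obtain ⟨c, hc⟩ := hqo
    have hodd : Nat.Coprime ((q ^ 4 + 1) / 2) ((q ^ 4 - 1) * (q ^ 3 + 1)) := by
      set h := (q ^ 4 + 1) / 2 with hh
      have e4 : q ^ 4 = 8 * (2 * c ^ 4 + 4 * c ^ 3 + 3 * c ^ 2 + c) + 1 := by rw [hc]; ring
      have hh' : h = 4 * (2 * c ^ 4 + 4 * c ^ 3 + 3 * c ^ 2 + c) + 1 := by omega
      have hd2 : h ∣ q ^ 4 + 1 := ⟨2, by omega⟩
      refine Nat.Coprime.mul_right ?_ ?_ <;> refine Nat.coprime_of_dvd fun l hl h1 h2' => ?_
      · have h3 := Nat.dvd_sub (h1.trans hd2) h2'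
        rw [show q ^ 4 + 1 - (q ^ 4 - 1) = 2 by omega] at h3
        obtain rfl := (Nat.prime_dvd_prime_iff_eq hl Nat.prime_two).1 h3
        omega
      · -- modulo the prime, `q` is one
        have a1 : ((q : ZMod l) ^ 4 + 1) = 0 := by
          have := (CharP.cast_eq_zero_iff (ZMod l) l (q ^ 4 + 1)).2 (h1.trans hd2)
          exact_mod_cast this
        have a2 : ((q : ZMod l) ^ 3 + 1) = 0 := by
          have := (CharP.cast_eq_zero_iff (ZMod l) l (q ^ 3 + 1)).2 h2'
          exact_mod_cast this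
        have a3 : (q : ZMod l) = 1 := by linear_combination (q : ZMod l) * a2 - a1
        rw [a3] at a2
        have a4 : ((2 : ℕ) : ZMod l) = 0 := by push_cast; linear_combination a2
        obtain rfl := (Nat.prime_dvd_prime_iff_eq hl Nat.prime_two).1
          ((CharP.cast_eq_zero_iff (ZMod l) l 2).1 a4)
        omega
    have h8 : orderOf g ∣ 2 * ((q ^ 4 + 1) / 2) := by
      rwa [Nat.mul_div_cancel' (by obtain ⟨m, hm⟩ := (show Odd q from ⟨c, hc⟩).pow (n := 4); omega)]
    refine (Nat.Coprime.dvd_of_dvd_mul_right ?_ h8)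
    exact (Nat.Coprime.coprime_dvd_right hk2 hodd).symm
  obtain ⟨x, hx⟩ : ∃ x : V, x ≠ 0 := by
    haveI : Nontrivial V := Module.nontrivial_of_finrank_pos (R := F) (by omega)
    exact exists_ne 0
  have hdeg := Polynomial.natDegree_le_of_dvd (hker 2 x hx (by
    rw [hT, ← map_pow, orderOf_dvd_iff_pow_eq_one.1 hk, map_one, Module.End.one_apply]))
    (show (X : F[X]) ^ 2 - 1 ≠ 0 from fun h => by
      have h' := natDegree_X_pow_sub_C (r := (1 : F)) (n := 2)
      rw [C_1, h, natDegree_zero] at h'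
      omega)
  rw [hd] at hdeg
  have : ((X : F[X]) ^ 2 - 1).natDegree = 2 := natDegree_X_pow_sub_C (r := (1 : F))
  omega

/-- A dual pair of degree four with trivial spinor norm has square norm. -/
theorem pair_four (h2 : (2 : F) ≠ 0) (hQ : (polarBilin Q).Nondegenerate) (hV : finrank F V = 8)
    {g : H5.orth Q} (hg : InOmega Q g) {f : F[X]} (hfm : f.Monic) (hf : Irreducible f)
    (hdvd : f ∣ (lin Q g).charpoly) (hne : H67.dualPoly (RingHom.id F) f ≠ f) (hd : f.natDegree = 4) :
    f ∣ X ^ ((Fintype.card F ^ 4 - 1) / 2) - 1 := by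
  classical
  haveI : Fact (Irreducible f) := ⟨hf⟩
  set T := lin Q g with hT
  let c := Module.finBasis F V
  have hMG : (LinearMap.toMatrix c c T).transpose * LinearMap.BilinForm.toMatrix c (polarBilin Q) *
      LinearMap.toMatrix c c T = LinearMap.BilinForm.toMatrix c (polarBilin Q) := by
    rw [← LinearMap.BilinForm.toMatrix_comp (c := c)]
    congr 1
    exact LinearMap.ext fun x => LinearMap.ext fun y => H5.orth_polar g x y
  obtain ⟨hχ0, hself⟩ : T.charpoly.coeff 0 ≠ 0 ∧
      H67.dualPoly (RingHom.id F) T.charpoly = T.charpoly := by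
    have h := H59.OrthOrder.charpoly_dual _ _
      (isUnit_iff_ne_zero.2 ((LinearMap.BilinForm.nondegenerate_iff_det_ne_zero c).1 hQ)) hMG
    rwa [LinearMap.charpoly_toMatrix] at h
  obtain ⟨u, hu⟩ := hdvd
  have hf0 : f.coeff 0 ≠ 0 := fun h => hχ0 (by rw [hu, mul_coeff_zero, h, zero_mul])
  set f' := H67.dualPoly (RingHom.id F) f with hf'
  have hfm' : f'.Monic := H67.dualPoly_monic hf0
  have hd' : f'.natDegree = 4 := (H67.dualPoly_natDegree hf0).trans hd
  have hf'd : f' ∣ T.charpoly := ⟨H67.dualPoly (RingHom.id F) u, by rw [← hself, hu, H67.dualPoly_mul]⟩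
  have hcop : IsCoprime f f' := (hf.coprime_iff_not_dvd).2 fun h =>
    hne (eq_of_monic_of_dvd_of_natDegree_le hfm hfm' h (by omega))
  have hχ : T.charpoly = f * f' := mul_eq_charpoly hfm hfm' hcop ⟨u, hu⟩ hf'd (by omega)
  set W := LinearMap.ker (aeval T f) with hW
  set W' := LinearMap.ker (aeval T f') with hW'
  have hrev : f.reflect 4 = C (f.coeff 0) * f' := by
    rw [hf', H67.dualPoly, Polynomial.map_id, RingHom.id_apply, ← mul_assoc, ← C_mul,
      mul_inv_cancel₀ hf0, C_1, one_mul, Polynomial.reverse, hd]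
  have hiso : ∀ (a b : F[X]), a * f + b * f' = 1 → ∀ x ∈ W, ∀ z ∈ W, polar Q x z = 0 := by
    intro a b hab x hx z hz
    have h1 := polar_aeval g (n := 4) f hd.le x (aeval T b z)
    have h2' := congrArg (fun P : F[X] => aeval T P z) ((add_comm _ _).trans hab)
    rw [mul_comm b f'] at h2'
    simp only [map_add, map_mul, map_one, LinearMap.add_apply, Module.End.mul_apply,
      Module.End.one_apply, LinearMap.mem_ker.1 hz, map_zero, add_zero] at h2'
    rw [← hT, LinearMap.mem_ker.1 hx, polar_zero_left, hrev, map_mul, aeval_C, Module.End.mul_apply,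
      h2', Module.algebraMap_end_apply, polar_smul_right, smul_eq_mul] at h1
    exact (mul_eq_zero.1 h1.symm).resolve_left hf0
  have hiso' : ∀ (a b : F[X]), a * f + b * f' = 1 → ∀ x ∈ W', ∀ z ∈ W', polar Q x z = 0 := by
    intro a b hab x hx z hz
    have hrev' : f'.reflect 4 = C (f'.coeff 0) * f := by
      have h := H67.dualPoly_dualPoly (σ := RingHom.id F) (fun _ => rfl) hfm hf0
      rw [← hf', H67.dualPoly, Polynomial.map_id, RingHom.id_apply, Polynomial.reverse, hd'] at h
      have hf'0 : f'.coeff 0 ≠ 0 := fun h0 => hχ0 (by rw [hχ, mul_coeff_zero, h0, mul_zero])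
      conv_rhs => rw [← h, ← mul_assoc, ← C_mul, mul_inv_cancel₀ hf'0, C_1, one_mul]
    have h1 := polar_aeval g (n := 4) f' hd'.le x (aeval T a z)
    have h2' := congrArg (fun P : F[X] => aeval T P z) hab
    rw [mul_comm a f] at h2'
    simp only [map_add, map_mul, map_one, LinearMap.add_apply, Module.End.mul_apply,
      Module.End.one_apply, LinearMap.mem_ker.1 hz, map_zero, add_zero] at h2'
    rw [← hT, LinearMap.mem_ker.1 hx, polar_zero_left, hrev', map_mul, aeval_C, Module.End.mul_apply,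
      h2', Module.algebraMap_end_apply, polar_smul_right, smul_eq_mul] at h1
    exact (mul_eq_zero.1 h1.symm).resolve_left fun h0 => hχ0 (by rw [hχ, mul_coeff_zero, h0, mul_zero])
  obtain ⟨a, b, hab⟩ := hcop
  have hsW := hiso a b hab
  have hsW' := hiso' a b hab
  have hcompl : IsCompl W W' := by
    refine ⟨Polynomial.disjoint_ker_aeval_of_isCoprime T ⟨a, b, hab⟩, codisjoint_iff.2 ?_⟩
    rw [hW, hW', Polynomial.sup_ker_aeval_eq_ker_aeval_mul_of_coprime T ⟨a, b, hab⟩, ← hχ,
      LinearMap.aeval_self_charpoly, LinearMap.ker_zero]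
  have hW4 : finrank F W = 4 ∧ finrank F W' = 4 := by
    have h1 := H5.two_mul_finrank_le hQ (W := W) fun z hz => H5.mem_perp.2 fun w hw => hsW w hw z hz
    have h1' := H5.two_mul_finrank_le hQ (W := W') fun z hz => H5.mem_perp.2 fun w hw => hsW' w hw z hz
    have h3 := Submodule.finrank_add_eq_of_isCompl hcompl
    omega
  let w := Module.finBasisOfFinrankEq F W hW4.1
  let ψ₀ : W' →ₗ[F] (Fin 4 → F) := LinearMap.pi fun i => (polarBilin Q (w i : V)) ∘ₗ W'.subtype
  have hψ : ∀ z i, ψ₀ z i = polar Q (w i : V) (z : V) := fun z i => rfl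
  have hψinj : Function.Injective ψ₀ := by
    refine (injective_iff_map_eq_zero ψ₀).2 fun z hz => Subtype.ext ?_
    refine H4.eq_zero_of_polar hQ fun y => ?_
    obtain ⟨⟨y1, y2⟩, rfl⟩ := (Submodule.prodEquivOfIsCompl _ _ hcompl).surjective y
    have hz1 : (polarBilin Q (z : V)) ∘ₗ W.subtype = 0 := w.ext fun i => by
      simpa [polar_comm, hψ] using congrFun hz i
    have := LinearMap.congr_fun hz1 y1
    rw [Submodule.coe_prodEquivOfIsCompl', polar_add_right, hsW' _ z.2 _ y2.2, add_zero]
    exact this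
  let ψ : W' ≃ₗ[F] (Fin 4 → F) := LinearEquiv.ofBijective ψ₀
    ⟨hψinj, (LinearMap.injective_iff_surjective_of_finrank_eq_finrank (by rw [hW4.2]; simp)).1 hψinj⟩
  let Φ : V ≃ₗ[F] (Fin 4 ⊕ Fin 4 → F) := (Submodule.prodEquivOfIsCompl _ _ hcompl).symm.trans
    ((w.equivFun.prodCongr ψ).trans (LinearEquiv.sumArrowLequivProdArrow _ _ F F).symm)
  have hΦ : ∀ (x : W) (z : W'), Φ ((x : V) + z) = Sum.elim (w.equivFun x) (ψ₀ z) := fun x z => by
    have : (x : V) + z = Submodule.prodEquivOfIsCompl _ _ hcompl (x, z) := by simp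
    rw [this]
    simp only [Φ, LinearEquiv.trans_apply, LinearEquiv.symm_apply_apply]
    funext i
    rcases i with i | i <;> rfl
  have he : ∀ v, H5.qPlus 4 F (Φ v) = Q v := by
    intro v
    obtain ⟨⟨x, z⟩, rfl⟩ := (Submodule.prodEquivOfIsCompl _ _ hcompl).surjective v
    rw [Submodule.coe_prodEquivOfIsCompl', hΦ, H5.coe_qPlus, Cfsg.quadFormPlus,
      QuadraticMap.map_add (⇑Q)]
    have hx0 : Q (x : V) = 0 := by
      have h := hsW _ x.2 _ x.2
      rw [H5.polar_self'] at h
      exact (mul_eq_zero.1 h).resolve_left h2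
    have hz0 : Q (z : V) = 0 := by
      have h := hsW' _ z.2 _ z.2
      rw [H5.polar_self'] at h
      exact (mul_eq_zero.1 h).resolve_left h2
    rw [hx0, hz0, zero_add, zero_add]
    simp only [Sum.elim_inl, Sum.elim_inr, hψ, ← polarBilin_apply_apply, Basis.equivFun_apply]
    have := congrArg (fun u : W => polarBilin Q (u : V) (z : V)) (w.sum_repr x)
    simp only [Submodule.coe_sum, Submodule.coe_smul_of_tower, map_sum, map_smul, LinearMap.sum_apply,
      LinearMap.smul_apply, smul_eq_mul] at this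
    exact this
  have hTW : ∀ x ∈ W, T x ∈ W := fun x hx => by
    refine LinearMap.mem_ker.2 ?_
    have hc : Commute (aeval T f) T := by
      have := (Commute.all f X).map (aeval T)
      rwa [aeval_X] at this
    rw [← Module.End.mul_apply, hc.eq, Module.End.mul_apply, LinearMap.mem_ker.1 hx, map_zero]
  have hTW' : ∀ x ∈ W', T x ∈ W' := fun x hx => by
    refine LinearMap.mem_ker.2 ?_
    have hc : Commute (aeval T f') T := by
      have := (Commute.all f' X).map (aeval T)
      rwa [aeval_X] at this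
    rw [← Module.End.mul_apply, hc.eq, Module.End.mul_apply, LinearMap.mem_ker.1 hx, map_zero]
  let TW : Module.End F W := T.restrict hTW
  haveI : Nontrivial W := Module.nontrivial_of_finrank_pos (R := F) (by omega)
  have hTWp : ∀ (P : F[X]) (x : W), ((aeval TW P x : W) : V) = aeval T P x := by
    intro P
    induction P using Polynomial.induction_on' with
    | add P R hP hR => intro x; simp [hP, hR]
    | monomial n r =>
      intro x
      have hpow : ∀ (k : ℕ) (z : W), (((TW ^ k) z : W) : V) = (T ^ k) (z : V) := by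
        intro k
        induction k with
        | zero => simp
        | succ k ih => intro z; rw [pow_succ, pow_succ, Module.End.mul_apply, ih]; rfl
      simp [aeval_monomial, hpow]
  have hTWf : aeval TW f = 0 := LinearMap.ext fun x => Subtype.ext (by rw [hTWp]; exact x.2)
  have hmin : minpoly F TW = f :=
    (minpoly.eq_of_irreducible_of_monic hf hTWf hfm).symm
  have hWχ : TW.charpoly = f := by
    refine eq_of_monic_of_dvd_of_natDegree_le hfm TW.charpoly_monic
      (hmin ▸ LinearMap.minpoly_dvd_charpoly TW) ?_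
    rw [TW.charpoly_natDegree, hW4.1, hd]
  set M := LinearMap.toMatrix w w TW with hM
  have hMdet : M.det = f.coeff 0 := by
    rw [hM, LinearMap.det_toMatrix, LinearMap.det_eq_sign_charpoly_coeff, hWχ, hW4.1]
    ring
  let A := Matrix.GeneralLinearGroup.mkOfDetNeZero M (hMdet ▸ hf0)
  have hA : (A : Matrix (Fin 4) (Fin 4) F) = M := rfl
  have hψT : ∀ z : W', ψ₀ ⟨T z, hTW' z z.2⟩ =
      ((((A⁻¹ : GL (Fin 4) F) : Matrix (Fin 4) (Fin 4) F)).transpose).mulVec (ψ₀ z) := by
    intro z
    have h1 : M.transpose.mulVec (ψ₀ ⟨T z, hTW' z z.2⟩) = ψ₀ z := by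
      funext i
      have h3 := H5.orth_polar g (w i : V) (z : V)
      have h4 : ((g : V ≃ₗ[F] V) (w i : V)) = ∑ k, M k i • (w k : V) := by
        have h5 := congrArg Subtype.val (w.sum_repr (TW (w i))).symm
        rw [Submodule.coe_sum] at h5
        simp only [Submodule.coe_smul_of_tower] at h5
        simp only [hM, LinearMap.toMatrix_apply]
        exact h5
      rw [h4] at h3
      rw [hψ, ← h3, ← polarBilin_apply_apply, map_sum, LinearMap.sum_apply, Matrix.mulVec,
        dotProduct]
      refine Finset.sum_congr rfl fun k _ => ?_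
      rw [map_smul, LinearMap.smul_apply, polarBilin_apply_apply, Matrix.transpose_apply, hψ,
        smul_eq_mul]
      rfl
    rw [← h1, Matrix.mulVec_mulVec, ← hA, ← Matrix.transpose_mul, ← Units.val_mul, mul_inv_cancel,
      Units.val_one, Matrix.transpose_one, Matrix.one_mulVec]
  have heq : orthCongr Φ he g = H5.leviHom A := by
    refine H5.orth_ext fun v => ?_
    obtain ⟨y, rfl⟩ := Φ.surjective v
    obtain ⟨⟨x, z⟩, rfl⟩ := (Submodule.prodEquivOfIsCompl _ _ hcompl).surjective y
    rw [orthCongr_apply, Φ.symm_apply_apply, Submodule.coe_prodEquivOfIsCompl', map_add]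
    rw [show (g : V ≃ₗ[F] V) (x : V) = ((TW x : W) : V) from rfl,
      show (g : V ≃ₗ[F] V) (z : V) = ((⟨T z, hTW' z z.2⟩ : W') : V) from rfl, hΦ, hΦ,
      H5.leviHom_apply]
    funext i
    rcases i with i | i
    · rw [Sum.elim_inl, H5.leviLin_inl, Sum.elim_comp_inl, hA, hM]
      exact (congrFun (LinearMap.toMatrix_mulVec_repr w w TW x) i).symm
    · rw [Sum.elim_inr, H5.leviLin_inr, Sum.elim_comp_inr, hψT]
  have hsq : IsSquare (f.coeff 0) := by
    have h := (inOmega_congr h2 hQ Φ he hg).2
    rw [heq, H5.spin_leviHom, hA, hMdet, H5.sqc_eq_one_iff] at h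
    exact h
  rw [← AdjoinRoot.mk_eq_zero, map_sub, map_pow, AdjoinRoot.mk_X, map_one, sub_eq_zero]
  set q := Fintype.card F with hq
  haveI : Module.Finite F (AdjoinRoot f) := hfm.finite_adjoinRoot
  haveI : Finite (AdjoinRoot f) := Module.finite_of_finite F
  have hN : Algebra.norm F (AdjoinRoot.root f) = f.coeff 0 := by
    have h := Algebra.PowerBasis.norm_gen_eq_coeff_zero_minpoly (AdjoinRoot.powerBasis hfm.ne_zero)
    rw [AdjoinRoot.powerBasis_gen, AdjoinRoot.powerBasis_dim, AdjoinRoot.minpoly_root hfm.ne_zero,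
      hfm.leadingCoeff, inv_one, C_1, mul_one, hd] at h
    rw [h]; ring
  have hfin : Module.finrank F (AdjoinRoot f) = 4 := by
    rw [← hd]; exact finrank_quotient_span_eq_natDegree
  have h := congrArg (fun t => t ^ (q / 2)) (FiniteField.algebraMap_norm_eq_pow_sum F (AdjoinRoot f)
    (AdjoinRoot.root f))
  simp only [hN, hfin, Nat.card_eq_fintype_card, ← hq, ← map_pow, ← pow_mul] at h
  rw [(FiniteField.isSquare_iff (ringChar_ne_two h2) hf0).1 hsq, map_one] at h
  have he4 : (∑ i ∈ Finset.range 4, q ^ i) * (q / 2) = (q ^ 4 - 1) / 2 := by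
    obtain ⟨k, hk⟩ := odd_card (F := F) h2
    rw [← hq] at hk
    have hk2 : q / 2 = k := by omega
    rw [hk2, hk]
    have : (2 * k + 1) ^ 4 = 2 * ((∑ i ∈ Finset.range 4, (2 * k + 1) ^ i) * k) + 1 := by
      simp [Finset.sum_range_succ]; ring
    omega
  rw [← he4]
  exact h.symm

end Cfsg.Agent.H18.SpecNine
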