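import Cfsg.Agent.H18.SpecNine.Unipotent
import Cfsg.Agent.H66.OrthSplit
import Cfsg.Agent.H66.OrthSpinor

/-!
Decomposition at the eigenvalue one and fillers.
-/

set_option autoImplicit false
set_option linter.unusedSectionVars false

namespace Cfsg.Agent.H18.SpecNine

open QuadraticMap Module Cfsg.Agent
open H66.SpSplit

variable {F : Type*} [Field F] [Fintype F]
variable {V V' : Type*} [AddCommGroup V] [Module F V] [AddCommGroup V'] [Module F V']
  [Finite V] [Finite V']

/-- `1 + T + ⋯ + T ^ (n-1)`. -/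
def geomS (T : Module.End F V) (n : ℕ) : Module.End F V := ∑ i ∈ Finset.range n, T ^ i

theorem geomS_mul (T : Module.End F V) {q : ℕ} (hq : T ^ q = 1) (m : ℕ) :
    geomS T (m * q) = (m : F) • geomS T q := by
  induction m with
  | zero => simp [geomS]
  | succ m ih =>
    rw [Nat.succ_mul, geomS, Finset.sum_range_add]
    simp only [pow_add, mul_comm m q, pow_mul, hq, one_pow, one_mul]
    rw [mul_comm q m]
    show geomS T (m * q) + geomS T q = _
    rw [ih, Nat.cast_succ, add_smul, one_smul]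

/-- An element of `Ω` with a translation part of order divisible by `N`. -/
def RealSemi (Q : QuadraticForm F V) (N : ℕ) : Prop :=
  ∃ g : H5.orth Q, InOmega Q g ∧ ∃ v : V, ∀ n, g ^ n = 1 → geomS (lin Q g) n v = 0 → N ∣ n

/-- An element of `Ω` of order divisible by `N`. -/
def RealOmega (Q : QuadraticForm F V) (N : ℕ) : Prop :=
  ∃ g : H5.orth Q, InOmega Q g ∧ N ∣ orderOf g

theorem RealSemi.mono {Q : QuadraticForm F V} {N N' : ℕ} (h : RealSemi Q N) (hd : N' ∣ N) :
    RealSemi Q N' := by
  obtain ⟨g, hg, v, hv⟩ := h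
  exact ⟨g, hg, v, fun n h1 h2 => hd.trans (hv n h1 h2)⟩

theorem RealOmega.mono {Q : QuadraticForm F V} {N N' : ℕ} (h : RealOmega Q N) (hd : N' ∣ N) :
    RealOmega Q N' :=
  let ⟨g, hg, hv⟩ := h
  ⟨g, hg, hd.trans hv⟩

theorem inOmega_congr (h2 : (2 : F) ≠ 0) {Q : QuadraticForm F V} {Q' : QuadraticForm F V'}
    (hQ : (polarBilin Q).Nondegenerate) (e : V ≃ₗ[F] V') (he : ∀ v, Q' (e v) = Q v)
    {g : H5.orth Q} (hg : InOmega Q g) : InOmega Q' (orthCongr e he g) :=
  (mem_commutator_iff h2 (H4.nondegenerate_of_isom e he hQ) _).1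
    (commutator_map_equiv _ ((mem_commutator_iff h2 hQ g).2 hg))

theorem RealSemi.transfer (h2 : (2 : F) ≠ 0) {Q : QuadraticForm F V} {Q' : QuadraticForm F V'}
    (hQ : (polarBilin Q).Nondegenerate) (e : V ≃ₗ[F] V') (he : ∀ v, Q' (e v) = Q v) {N : ℕ}
    (h : RealSemi Q N) : RealSemi Q' N := by
  obtain ⟨g, hg, v, hv⟩ := h
  refine ⟨orthCongr e he g, inOmega_congr h2 hQ e he hg, e v, fun n h1 h2' => hv n ?_ ?_⟩
  · rwa [← map_pow, EmbeddingLike.map_eq_one_iff] at h1
  · apply e.injective
    rw [map_zero, ← h2', geomS, geomS, LinearMap.sum_apply, LinearMap.sum_apply, map_sum]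
    refine Finset.sum_congr rfl fun i _ => ?_
    rw [← map_pow, ← map_pow, ← map_pow, lin_apply, lin_apply, orthCongr_apply, e.symm_apply_apply]

theorem RealOmega.transfer (h2 : (2 : F) ≠ 0) {Q : QuadraticForm F V} {Q' : QuadraticForm F V'}
    (hQ : (polarBilin Q).Nondegenerate) (e : V ≃ₗ[F] V') (he : ∀ v, Q' (e v) = Q v) {N : ℕ}
    (h : RealOmega Q N) : RealOmega Q' N := by
  obtain ⟨g, hg, hv⟩ := h
  exact ⟨_, inOmega_congr h2 hQ e he hg, by rwa [MulEquiv.orderOf_eq]⟩

theorem RealOmega.transfer_smul (h2 : (2 : F) ≠ 0) {Q : QuadraticForm F V}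
    (hQ : (polarBilin Q).Nondegenerate) {c : F} (hc : c ≠ 0) {N : ℕ} (h : RealOmega Q N) :
    RealOmega (c • Q) N := by
  obtain ⟨g, hg, hv⟩ := h
  exact ⟨orthSmul Q hc g, (mem_commutator_iff h2 (H4.nondegenerate_smul hc hQ) _).1
    (commutator_map_equiv _ ((mem_commutator_iff h2 hQ g).2 hg)), by rwa [MulEquiv.orderOf_eq]⟩

/-- The discriminant of an orthogonal sum. -/
theorem det_gram_prod {ι κ : Type*} [Fintype ι] [DecidableEq ι] [Fintype κ] [DecidableEq κ]
    (Q : QuadraticForm F V) (Q' : QuadraticForm F V') (b : Basis ι F V) (b' : Basis κ F V') :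
    (H4.gram (Q.prod Q') (b.prod b')).det = (H4.gram Q b).det * (H4.gram Q' b').det := by
  have : H4.gram (Q.prod Q') (b.prod b') = Matrix.fromBlocks (H4.gram Q b) 0 0 (H4.gram Q' b') := by
    ext (i | i) (j | j) <;>
      simp [H4.gram, H67.polar_prod, QuadraticMap.map_zero]
  rw [this, Matrix.det_fromBlocks_zero₂₁]

/-- Sums of squares with one prescribed last weight. -/
theorem exists_diag (h2 : (2 : F) ≠ 0) (n : ℕ) {d : F} (hd : d ≠ 0) :
    ∃ (D : QuadraticForm F (Fin (n + 1) → F)), (polarBilin D).Nondegenerate ∧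
      (H4.gram D (Pi.basisFun F _)).det = 2 ^ (n + 1) * d := by
  classical
  let w : Fin (n + 1) → F := fun i => if i = Fin.last n then d else 1
  let P := QuadraticMap.weightedSumSquares F w
  have hgram : H4.gram P (Pi.basisFun F _) = Matrix.diagonal fun i => 2 * w i := by
    have hpol : ∀ x y : Fin (n + 1) → F, polar P x y = ∑ k, 2 * w k * (x k * y k) := by
      intro x y
      simp only [QuadraticMap.polar, P, QuadraticMap.weightedSumSquares_apply, Pi.add_apply,
        smul_eq_mul, ← Finset.sum_sub_distrib]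
      exact Finset.sum_congr rfl fun k _ => by ring
    funext i j
    rcases eq_or_ne i j with rfl | hij
    · simp [H4.gram, hpol, Pi.single_apply]
    · simp [H4.gram, hpol, Pi.single_apply, hij, hij.symm, Matrix.diagonal_apply_ne _ hij]
  have hdet : (H4.gram P (Pi.basisFun F _)).det = 2 ^ (n + 1) * d := by
    rw [hgram, Matrix.det_diagonal, Finset.prod_mul_distrib, Finset.prod_const, Finset.card_univ,
      Fintype.card_fin]
    simp [w]
  refine ⟨P, (LinearMap.BilinForm.nondegenerate_iff_det_ne_zero (B := polarBilin P)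
    (Pi.basisFun F _)).2 ?_, hdet⟩
  rw [← H4.gram_eq_toMatrix, hdet]
  exact mul_ne_zero (pow_ne_zero _ h2) hd

/-- Complete a space to a given one. -/
theorem exists_filler (h2 : (2 : F) ≠ 0) {X : QuadraticForm F V} {Y : QuadraticForm F V'}
    (hX : (polarBilin X).Nondegenerate) (hY : (polarBilin Y).Nondegenerate) {r : ℕ}
    (hdim : finrank F V + (r + 1) = finrank F V') :
    ∃ (D : QuadraticForm F (Fin (r + 1) → F)), (polarBilin D).Nondegenerate ∧
      ∃ e : (V × (Fin (r + 1) → F)) ≃ₗ[F] V', ∀ x, Y (e x) = X.prod D x := by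
  classical
  let b := Module.finBasis F V
  let b' := Module.finBasis F V'
  have hx := H4.det_gram_ne_zero hX b
  have hy := H4.det_gram_ne_zero hY b'
  obtain ⟨D, hD, hdet⟩ := exists_diag h2 r
    (d := (2 ^ (r + 1) * (H4.gram X b).det * (H4.gram Y b').det))
    (mul_ne_zero (mul_ne_zero (pow_ne_zero _ h2) hx) hy)
  refine ⟨D, hD, H4.isom_of_disc h2 (H67.prod_nondegenerate hX hD) hY (by simpa using hdim)
    (b.prod (Pi.basisFun F _)) b' ⟨2 ^ (r + 1) * (H4.gram X b).det * (H4.gram Y b').det, ?_⟩⟩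
  rw [det_gram_prod, hdet]
  ring

/-- The fixed part and the moved part of an isometry. -/
theorem exists_parts (p : ℕ) [Fact p.Prime] [CharP F p] (hp : p ≠ 2) {Q : QuadraticForm F V}
    (hQ : (polarBilin Q).Nondegenerate) {g : H5.orth Q} (hg : InOmega Q g) :
    ∃ (A B : Submodule F V) (a : H5.orth (Q.comp A.subtype)) (b : H5.orth (Q.comp B.subtype))
      (e : (A × B) ≃ₗ[F] V) (he : ∀ x, Q (e x) = (Q.comp A.subtype).prod (Q.comp B.subtype) x),
      g = orthCongr e he (prodHom _ _ (a, b)) ∧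
      (polarBilin (Q.comp A.subtype)).Nondegenerate ∧ (polarBilin (Q.comp B.subtype)).Nondegenerate ∧
      IsNilpotent (lin _ a - 1) ∧ (∀ x, (b : B ≃ₗ[F] B) x = x → x = 0) ∧
      InOmega _ a ∧ InOmega _ b ∧ Even (finrank F B) ∧ finrank F A + finrank F B = finrank F V := by
  classical
  have hp1 : p.Prime := Fact.out
  have h2 : (2 : F) ≠ 0 := fun h0 => hp ((Nat.prime_dvd_prime_iff_eq hp1 Nat.prime_two).1
    ((CharP.cast_eq_zero_iff F p 2).1 (by exact_mod_cast h0)))
  set T := H66.OrthSpin.endHom Q g with hT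
  have hS := H66.OrthSpin.isOSys_endHom hQ g
  rw [← hT] at hS
  set A := fixPart T
  set B := movPart T
  have hTA : ∀ x ∈ A, (g : V ≃ₗ[F] V) x ∈ A := fun x hx => fixPart_mem T hx
  have hTB : ∀ x ∈ B, (g : V ≃ₗ[F] V) x ∈ B := fun x hx => movPart_mem T hx
  let mk : ∀ (W : Submodule F V), (∀ x ∈ W, (g : V ≃ₗ[F] V) x ∈ W) → H5.orth (Q.comp W.subtype) :=
    fun W hW => ⟨LinearEquiv.ofInjectiveEndo ((g : V ≃ₗ[F] V).toLinearMap.restrict hW)
      (fun x y h => Subtype.ext ((g : V ≃ₗ[F] V).injective (congrArg Subtype.val h))),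
      fun x => H5.orth_map g x⟩
  have hmk : ∀ (W : Submodule F V) (hW : ∀ x ∈ W, (g : V ≃ₗ[F] V) x ∈ W) (x : W),
      (((mk W hW : H5.orth _) : W ≃ₗ[F] W) x : V) = (g : V ≃ₗ[F] V) x :=
    fun _ _ _ => rfl
  have hcompl := isCompl_parts T
  let e := Submodule.prodEquivOfIsCompl A B hcompl
  have horth : ∀ x ∈ A, ∀ z ∈ B, polar Q x z = 0 := fun x hx z hz =>
    (H66.OrthSplit.orth_parts hS hx hz).1
  have he : ∀ x, Q (e x) = (Q.comp A.subtype).prod (Q.comp B.subtype) x := fun x => by
    simp only [e, Submodule.coe_prodEquivOfIsCompl', QuadraticMap.prod_apply, QuadraticMap.comp_apply,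
      Submodule.subtype_apply]
    rw [QuadraticMap.map_add (⇑Q), horth _ x.1.2 _ x.2.2, add_zero]
  have hgeq : g = orthCongr e he (prodHom _ _ (mk A hTA, mk B hTB)) := by
    refine H5.orth_ext fun x => ?_
    obtain ⟨y, rfl⟩ := e.surjective x
    rw [orthCongr_apply, e.symm_apply_apply, prodHom_apply]
    simp only [e, Submodule.coe_prodEquivOfIsCompl', hmk, map_add]
  have hnd : ∀ W : Submodule F V, (LinearMap.BilinForm.restrict (polarBilin Q) W).Nondegenerate →
      (polarBilin (Q.comp W.subtype)).Nondegenerate := fun W h => by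
    have : polarBilin (Q.comp W.subtype) = LinearMap.BilinForm.restrict (polarBilin Q) W := by
      refine LinearMap.ext fun x => LinearMap.ext fun y => ?_
      simp [QuadraticMap.polar]
    rwa [this]
  have hAn := hnd A hS.fix.1
  have hBn := hnd B hS.mov.1
  have hnil : IsNilpotent (lin _ (mk A hTA) - 1) := fixEnd_isNilpotent T
  have hfix : ∀ x, ((mk B hTB : H5.orth _) : B ≃ₗ[F] B) x = x → x = 0 := fun x hx =>
    ker_sub_one_movEnd T hx
  -- the unipotent part lies in `Ω`
  obtain ⟨r, hr⟩ := hnil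
  have hpr : mk A hTA ^ p ^ r = 1 := by
    refine lin_injective _ ?_
    rw [map_pow, map_one]
    rcases subsingleton_or_nontrivial A with hA | hA
    · exact LinearMap.ext fun x => Subsingleton.elim _ _
    haveI : CharP (Module.End F A) p :=
      charP_of_injective_algebraMap (algebraMap F (Module.End F A)).injective p
    have h := sub_pow_char_pow_of_commute (p := p) (n := r) (h := Commute.one_right (lin _ (mk A hTA)))
    rw [pow_eq_zero_of_le (Nat.lt_pow_self hp1.one_lt).le hr, one_pow] at h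
    exact sub_eq_zero.1 h.symm
  have hAo : InOmega _ (mk A hTA) :=
    inOmega_of_odd_pow h2 hAn ((hp1.odd_of_ne_two hp).pow) hpr
  have hprod : InOmega _ (prodHom _ _ (mk A hTA, mk B hTB)) := by
    have h := (mem_commutator_iff h2 hQ g).2 hg
    rw [hgeq] at h
    have h' := commutator_map_equiv (orthCongr e he).symm h
    rw [MulEquiv.symm_apply_apply] at h'
    exact (mem_commutator_iff h2 (H67.prod_nondegenerate hAn hBn) _).1 h'
  have hBo : InOmega _ (mk B hTB) := by
    obtain ⟨hd, hs⟩ := hprod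
    rw [det_prodHom, hAo.1, one_mul] at hd
    rw [spin_prodHom h2 hAn hBn, hAo.2, one_mul] at hs
    exact ⟨hd, hs⟩
  refine ⟨A, B, mk A hTA, mk B hTB, e, he, hgeq, hAn, hBn, ⟨r, hr⟩, hfix, hAo, hBo, ?_, ?_⟩
  · -- an isometry without fixed vectors and determinant one lives in even dimension
    rcases Nat.even_or_odd (finrank F B) with hev | hodd
    · exact hev
    exfalso
    let c := Module.finBasis F B
    set M := LinearMap.toMatrix c c (lin _ (mk B hTB)) with hM
    set G := LinearMap.BilinForm.toMatrix c (polarBilin (Q.comp B.subtype)) with hG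
    have hMG : M.transpose * G * M = G := by
      rw [hM, hG, ← LinearMap.BilinForm.toMatrix_comp (c := c)]
      congr 1
      refine LinearMap.ext fun x => LinearMap.ext fun y => ?_
      exact H5.orth_polar (mk B hTB) x y
    have hMd : M.det = 1 := by rw [hM, LinearMap.det_toMatrix]; exact hBo.1
    have h1 : (M.transpose - 1) * G * M = G * (1 - M) := by
      rw [sub_mul, sub_mul, hMG, one_mul, mul_sub, mul_one]
    have h3 := congrArg Matrix.det h1
    rw [Matrix.det_mul, Matrix.det_mul, Matrix.det_mul, hMd, mul_one] at h3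
    have h4 : (M.transpose - 1).det = (M - 1).det := by
      rw [← Matrix.det_transpose (M - 1), Matrix.transpose_sub, Matrix.transpose_one]
    have h5 : (1 - M).det = -(M - 1).det := by
      rw [← neg_sub, Matrix.det_neg, Fintype.card_fin, hodd.neg_one_pow, neg_one_mul]
    have hGd : G.det ≠ 0 := (LinearMap.BilinForm.nondegenerate_iff_det_ne_zero c).1 hBn
    have h6 : (M - 1).det = 0 := by
      rw [h4, h5] at h3
      refine (mul_eq_zero.1 (show (2 * G.det) * (M - 1).det = 0 by linear_combination h3)).resolve_left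
        (mul_ne_zero h2 hGd)
    have h7 : LinearMap.det (lin _ (mk B hTB) - 1) = 0 := by
      rw [← LinearMap.det_toMatrix c, map_sub, LinearMap.toMatrix_one]
      exact h6
    obtain ⟨x, hx, hx0⟩ := Submodule.exists_mem_ne_zero_of_ne_bot
      (LinearMap.bot_lt_ker_of_det_eq_zero h7).ne'
    exact hx0 (hfix x (sub_eq_zero.1 (LinearMap.mem_ker.1 hx)))
  · rw [← finrank_prod]
    exact e.finrank_eq

end Cfsg.Agent.H18.SpecNine
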