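import Cfsg.Agent.H18.SpecNine.Basic

/-!
Unipotent isometries: single blocks of odd size, and the bound in even dimension.
-/

set_option autoImplicit false
set_option linter.unusedSectionVars false

namespace Cfsg.Agent.H18.SpecNine

open QuadraticMap Module Cfsg.Agent

variable {F : Type*} [Field F] (p : ℕ) [Fact p.Prime] [CharP F p]

/-- The anti-diagonal form with alternating signs. -/
def blockForm (n : ℕ) : QuadraticForm F (Fin n → F) :=
  ∑ i : Fin n, ((-1 : F) ^ (i : ℕ)) • linMulLin (LinearMap.proj i) (LinearMap.proj i.rev)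

theorem blockForm_apply (n : ℕ) (x : Fin n → F) :
    blockForm n x = ∑ i : Fin n, (-1 : F) ^ (i : ℕ) * (x i * x i.rev) := by
  simp [blockForm]

theorem blockForm_polar (l : ℕ) (x y : Fin (2 * l + 1) → F) :
    polar (blockForm (2 * l + 1)) x y =
      2 * ∑ i : Fin (2 * l + 1), (-1 : F) ^ (i : ℕ) * (x i * y i.rev) := by
  have h : ∑ i : Fin (2 * l + 1), (-1 : F) ^ (i : ℕ) * (y i * x i.rev) =
      ∑ i : Fin (2 * l + 1), (-1 : F) ^ (i : ℕ) * (x i * y i.rev) := by
    refine Fintype.sum_equiv Fin.revPerm _ _ fun i => ?_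
    simp only [Fin.revPerm_apply, Fin.rev_rev]
    have : (-1 : F) ^ (i : ℕ) = (-1) ^ (i.rev : ℕ) := by
      refine neg_one_pow_congr ?_
      simp only [Fin.val_rev, Nat.even_iff]
      omega
    rw [this]; ring
  simp only [polar, blockForm_apply, Pi.add_apply]
  simp only [add_mul, mul_add, Finset.sum_add_distrib]
  linear_combination h

theorem blockForm_nondegenerate (l : ℕ) (h2 : (2 : F) ≠ 0) :
    (polarBilin (blockForm (F := F) (2 * l + 1))).Nondegenerate := by
  have h : ∀ x : Fin (2 * l + 1) → F, (∀ y, polar (blockForm (2 * l + 1)) x y = 0) → x = 0 := by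
    intro x hx
    funext i
    have h1 := hx (Pi.single i.rev 1)
    rw [blockForm_polar, Finset.sum_eq_single i] at h1
    · simpa [h2] using h1
    · intro j _ hj
      rw [Pi.single_apply, if_neg (fun e => hj (Fin.rev_injective e))]; simp
    · simp
  exact ⟨h, fun y hy => h y fun x => (polar_comm _ _ _).trans (hy x)⟩

/-- The shift. -/
def shift (m : ℕ) : Module.End F (Fin (m + 1) → F) where
  toFun x := Fin.cons 0 fun j => x j.castSucc
  map_add' x y := funext fun i => by induction i using Fin.cases <;> simp
  map_smul' c x := funext fun i => by induction i using Fin.cases <;> simp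

theorem shift_pow_apply (m k : ℕ) (x : Fin (m + 1) → F) (i : Fin (m + 1)) :
    ((shift m ^ k) x) i = if k ≤ (i : ℕ) then x ⟨i - k, by omega⟩ else 0 := by
  induction k generalizing i with
  | zero => simp
  | succ k ih =>
    rw [pow_succ', Module.End.mul_apply]
    induction i using Fin.cases with
    | zero => simp [shift]
    | succ j =>
      show ((shift m ^ k) x) j.castSucc = _
      rw [ih]
      simp only [Fin.val_castSucc, Fin.val_succ, Nat.add_sub_add_right, Nat.succ_le_succ_iff]

theorem shift_pow_eq_zero (m : ℕ) {k : ℕ} (hk : m < k) : (shift m : Module.End F _) ^ k = 0 :=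
  LinearMap.ext fun x => funext fun i => by
    rw [shift_pow_apply, if_neg (by omega)]; rfl

theorem polar_shift (l : ℕ) (h20 : (2 : F) ≠ 0) (x : Fin (2 * l + 1) → F) :
    polar (blockForm (2 * l + 1)) x (shift (2 * l) x) = 0 := by
  have hsum : ∀ a b : Fin (2 * l + 1) → F,
      ∑ i : Fin (2 * l + 1), (-1 : F) ^ (i : ℕ) * (a i * shift (2 * l) b i.rev) =
      -∑ i : Fin (2 * l + 1), (-1 : F) ^ (i : ℕ) * (shift (2 * l) a i * b i.rev) := by
    intro a b
    rw [Fin.sum_univ_castSucc, Fin.sum_univ_succ]
    simp [shift, Fin.rev_castSucc, Fin.rev_succ, pow_succ, Finset.sum_neg_distrib]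
  have h1 := hsum x x
  have h2 := blockForm_polar l x (shift (2 * l) x)
  have h3 := blockForm_polar l (shift (2 * l) x) x
  rw [polar_comm] at h3
  rw [h1] at h2
  refine mul_left_cancel₀ h20 ?_
  linear_combination h2 + h3

theorem geom_sum_eq_sub_one_pow {R : Type*} [Ring R] [Algebra F R] (u : R) (k : ℕ) :
    ∑ i ∈ Finset.range (p ^ k), u ^ i = (u - 1) ^ (p ^ k - 1) := by
  open Polynomial in
  have h : (∑ i ∈ Finset.range (p ^ k), (X : F[X]) ^ i) = (X - 1) ^ (p ^ k - 1) := by
    refine mul_right_cancel₀ (show (X : F[X]) - 1 ≠ 0 from by simpa using X_sub_C_ne_zero (1 : F)) ?_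
    rw [geom_sum_mul, ← pow_succ, Nat.sub_add_cancel (Nat.one_le_pow _ _ (Fact.out : p.Prime).pos),
      sub_pow_char_pow, one_pow]
  simpa using congrArg (Polynomial.aeval u) h

/-- A single block of odd size. -/
theorem exists_block (l : ℕ) (h2 : (2 : F) ≠ 0) :
    ∃ g : H5.orth (blockForm (F := F) (2 * l + 1)), ∀ (j : ℕ),
      ((lin _ g - 1) ^ j = 0 ↔ 2 * l < j) := by
  set N : Module.End F (Fin (2 * l + 1) → F) := shift (2 * l)
  have hnil : IsNilpotent N := ⟨2 * l + 1, shift_pow_eq_zero _ (by omega)⟩
  obtain ⟨R, hR⟩ := hnil.isUnit_one_sub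
  have hNR : Commute N (R : Module.End F _) := by rw [hR]; exact (Commute.one_right N).sub_right (Commute.refl N)
  have hNR' : Commute N ((R⁻¹ : (Module.End F _)ˣ) : Module.End F _) := hNR.units_inv_right
  obtain ⟨P, hP⟩ := hnil.isUnit_one_add
  let U : (Module.End F (Fin (2 * l + 1) → F))ˣ := P * R⁻¹
  let e := LinearMap.GeneralLinearGroup.generalLinearEquiv F _ U
  have he : ∀ x, e x = (U : Module.End F _) x := fun x => rfl
  have hiso : e ∈ H5.orth (blockForm (F := F) (2 * l + 1)) := fun x => by
    set a := ((R⁻¹ : (Module.End F _)ˣ) : Module.End F _) x with ha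
    have hx : x = a - N a := by
      have : (R : Module.End F _) a = x := by
        rw [ha, ← Module.End.mul_apply, Units.mul_inv, Module.End.one_apply]
      rw [← this, hR]; rfl
    have hex : e x = a + N a := by
      rw [he]; show ((P : Module.End F _) * _) x = _
      rw [Module.End.mul_apply, ← ha, hP]; rfl
    rw [hex, hx, QuadraticMap.map_add (⇑(blockForm (2 * l + 1))), sub_eq_add_neg,
      QuadraticMap.map_add (⇑(blockForm (2 * l + 1))), QuadraticMap.map_neg,
      polar_neg_right, polar_shift l h2, neg_zero]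
  refine ⟨⟨e, hiso⟩, fun j => ?_⟩
  have hlin : lin _ (⟨e, hiso⟩ : H5.orth (blockForm (F := F) (2 * l + 1))) - 1 =
      (2 : F) • (N * ((R⁻¹ : (Module.End F _)ˣ) : Module.End F _)) := by
    have h1 : lin _ (⟨e, hiso⟩ : H5.orth (blockForm (F := F) (2 * l + 1))) =
        (U : Module.End F _) := LinearMap.ext he
    set X := ((R⁻¹ : (Module.End F (Fin (2 * l + 1) → F))ˣ) : Module.End F (Fin (2 * l + 1) → F))
    have hX : (1 - N) * X = 1 := by rw [← hR]; exact Units.mul_inv R
    rw [h1, Units.val_mul, hP, two_smul]
    calc (1 + N) * X - 1 = (1 + N) * X - (1 - N) * X := by rw [hX]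
      _ = N * X + N * X := by rw [← sub_mul, ← add_mul]; congr 1; abel
  rw [hlin, smul_pow, smul_eq_zero_iff_right (pow_ne_zero _ h2), hNR'.mul_pow]
  rw [← Units.val_pow_eq_pow_val, Units.mul_left_eq_zero]
  refine ⟨fun h => ?_, fun h => shift_pow_eq_zero _ h⟩
  by_contra hj
  push Not at hj
  have := congrFun (LinearMap.congr_fun h (fun _ => 1)) (Fin.last (2 * l))
  rw [shift_pow_apply, if_pos (by simpa using hj)] at this
  exact one_ne_zero this

end Cfsg.Agent.H18.SpecNine

namespace Cfsg.Agent.H18.SpecNine

open Module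

variable {F V : Type*} [Field F] [AddCommGroup V] [Module F V] [FiniteDimensional F V]

/-- In even dimension a unipotent isometry has no block of full size. -/
theorem sub_one_pow_eq_zero_of_even (h2 : (2 : F) ≠ 0) (B : LinearMap.BilinForm F V)
    (hB : B.Nondegenerate) (hs : ∀ x y, B x y = B y x) (T : Module.End F V)
    (hT : ∀ x y, B (T x) (T y) = B x y) (hnil : IsNilpotent (T - 1)) {m : ℕ}
    (hm : finrank F V = 2 * m) : (T - 1) ^ (2 * m - 1) = 0 := by
  set N := T - 1 with hN
  rcases Nat.eq_zero_or_pos m with rfl | hm0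
  · have := Module.finrank_zero_iff.1 hm
    exact LinearMap.ext fun x => Subsingleton.elim _ _
  by_contra hne
  set k := 2 * m - 1 with hk
  have hzero : N ^ (k + 1) = 0 := by
    obtain ⟨r, hr⟩ := hnil
    refine LinearMap.ker_eq_top.1 (top_le_iff.1 ?_)
    rw [show k + 1 = finrank F V by omega, ← LinearMap.ker_eq_top.2 hr]
    exact Module.End.ker_pow_le_ker_pow_finrank N r
  have key : ∀ x y, B (N x) (T y) = -B x (N y) := fun x y => by
    simp only [hN, LinearMap.sub_apply, Module.End.one_apply, map_sub, LinearMap.sub_apply, hT]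
    ring
  have hcomm : Commute T N := (Commute.refl T).sub_right (Commute.one_right T)
  have hker : ∀ x z, B ((N ^ k) x) (N z) = 0 := fun x z => by
    have h := key ((N ^ k) x) z
    rw [← Module.End.mul_apply, ← pow_succ', hzero, LinearMap.zero_apply, map_zero,
      LinearMap.zero_apply, zero_eq_neg] at h
    exact h
  have hiter : ∀ j x y, B ((N ^ j) x) ((T ^ j) y) = (-1) ^ j * B x ((N ^ j) y) := by
    intro j
    induction j with
    | zero => intro x y; simp
    | succ j ih =>
      intro x y
      rw [pow_succ' N, pow_succ' T, Module.End.mul_apply, Module.End.mul_apply, key,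
        ← Module.End.mul_apply, ← (hcomm.pow_left j).eq, Module.End.mul_apply, ih,
        ← Module.End.mul_apply, ← pow_succ, pow_succ' N, Module.End.mul_apply, pow_succ,
        ← Module.End.mul_apply, ← pow_succ']
      ring
  obtain ⟨e, he⟩ : ∃ e, (N ^ k) e ≠ 0 := by
    by_contra h; push Not at h; exact hne (LinearMap.ext h)
  have hTk : ∀ j y, ∃ z, (T ^ j) y = y + N z := by
    intro j
    induction j with
    | zero => exact fun y => ⟨0, by simp⟩
    | succ j ih =>
      intro y
      obtain ⟨z, hz⟩ := ih y
      refine ⟨y + T z, ?_⟩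
      rw [pow_succ', Module.End.mul_apply, hz, map_add, ← Module.End.mul_apply, hcomm.eq,
        Module.End.mul_apply, map_add, hN]
      simp only [LinearMap.sub_apply, Module.End.one_apply]
      abel
  have hee : B ((N ^ k) e) e = 0 := by
    obtain ⟨z, hz⟩ := hTk k e
    have h := hiter k e e
    rw [hz, map_add, hker, add_zero, hs e, Odd.neg_one_pow ⟨m - 1, by omega⟩] at h
    exact (mul_eq_zero.1 (show (2 : F) * B ((N ^ k) e) e = 0 by linear_combination h)).resolve_left h2
  -- `e` and the range of `N` span everything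
  have hrank : ∀ j, j ≤ k → finrank F (LinearMap.range (N ^ (k - j))) ≥ j + 1 := by
    intro j
    induction j with
    | zero =>
      intro _
      rw [Nat.sub_zero]
      have : LinearMap.range (N ^ k) ≠ ⊥ := fun h => hne (LinearMap.range_eq_bot.1 h)
      exact Nat.one_le_iff_ne_zero.2 fun h => this (Submodule.finrank_eq_zero.1 h)
    | succ j ih =>
      intro hj
      have h1 := ih (by omega)
      set i := k - (j + 1) with hi
      rw [show k - j = i + 1 by omega] at h1
      have hle : LinearMap.range (N ^ (i + 1)) ≤ LinearMap.range (N ^ i) := by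
        rw [pow_succ]; exact LinearMap.range_comp_le_range _ _
      have hlt : LinearMap.range (N ^ (i + 1)) ≠ LinearMap.range (N ^ i) := by
        intro heq
        have hst : ∀ r, LinearMap.range (N ^ (i + r)) = LinearMap.range (N ^ i) := by
          intro r
          induction r with
          | zero => rfl
          | succ r ihr =>
            rw [← add_assoc, pow_succ', Module.End.mul_eq_comp, LinearMap.range_comp, ihr,
              ← LinearMap.range_comp, ← Module.End.mul_eq_comp, ← pow_succ', heq]
        have h3 := hst (k + 1 - i)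
        rw [show i + (k + 1 - i) = k + 1 by omega, hzero, LinearMap.range_zero] at h3
        rw [← h3] at hle
        rw [le_bot_iff.1 hle, finrank_bot] at h1
        omega
      have := Submodule.finrank_lt_finrank_of_lt (lt_of_le_of_ne hle hlt)
      omega
  have hN1 : finrank F (LinearMap.range N) + 1 ≥ 2 * m := by
    have := hrank (k - 1) (by omega)
    rw [show k - (k - 1) = 1 by omega, pow_one] at this
    omega
  have hspan : Submodule.span F {e} ⊔ LinearMap.range N = ⊤ := by
    refine Submodule.eq_top_of_finrank_eq (le_antisymm (Submodule.finrank_le _) ?_)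
    have hne' : e ∉ LinearMap.range N := by
      rintro ⟨z, rfl⟩
      rw [← Module.End.mul_apply, ← pow_succ, hzero] at he
      exact he rfl
    have hlt : LinearMap.range N < Submodule.span F {e} ⊔ LinearMap.range N :=
      lt_of_le_of_ne le_sup_right fun h => hne' (h ▸ Submodule.mem_sup_left (Submodule.mem_span_singleton_self e))
    have := Submodule.finrank_lt_finrank_of_lt hlt
    omega
  refine he (hB.1 _ fun y => ?_)
  obtain ⟨a, ha, b, ⟨z, rfl⟩, rfl⟩ := Submodule.mem_sup.1 (hspan.ge (Submodule.mem_top (x := y)))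
  obtain ⟨c, rfl⟩ := Submodule.mem_span_singleton.1 ha
  rw [map_add, hker, map_smul, hee, smul_zero, add_zero]

end Cfsg.Agent.H18.SpecNine
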